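import Cfsg.Agent.DT.Cop
import Cfsg.Agent.DT.Cop2
import Cfsg.Prelude.Def_CaseTheorems
import Cfsg.Prelude.Def_Local
import Cfsg.Prelude.Def_Transfer

/-! Project RY (S3860): definitions. -/

set_option autoImplicit false

namespace Cfsg.Agent.RY

open Cfsg.Agent.DT (cm nor cen cj)

variable {G : Type*} [Group G]

/-- centralizer of a subgroup. -/
abbrev ceS (E : Subgroup G) : Subgroup G := Subgroup.centralizer (E : Set G)

/-- `t` inverts `y`. -/
def Iv (t y : G) : Prop := t * y * t⁻¹ = y⁻¹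

/-- `y` lies in an odd order subgroup of `H` normalized by `H`. -/
def InO (H : Subgroup G) (y : G) : Prop :=
  ∃ L : Subgroup G, L ≤ H ∧ H ≤ nor L ∧ Odd (Nat.card L) ∧ y ∈ L

/-- the conclusion: 2-length at most one. -/
def Concl (G : Type*) [Group G] : Prop :=
  ∃ N K : Subgroup G, N.Normal ∧ K.Normal ∧ N ≤ K ∧ Odd (Nat.card N) ∧ Odd K.index ∧ ∃ j : ℕ, N.relIndex K = 2 ^ j

/-- the hypothesis of the theorem. -/
def Hyp (G : Type*) [Group G] (a : ℕ) : Prop :=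
  ∀ x : G, IsConj x x⁻¹ → x ∉ Subgroup.center G → ((Subgroup.centralizer ({x} : Set G)).index).factorization 2 = a

def Good (U : Subgroup G) : Prop :=
  ∀ y ∈ ceS U, Odd (orderOf y) → ∀ t ∈ nor U, Iv t y → InO (ceS U) y

structure Loc (E : Subgroup G) : Prop where
  nm : E.Normal
  two : IsPGroup 2 E
  odd : ∀ N : Subgroup G, N.Normal → Odd (Nat.card N) → N = ⊥
  good : ∀ U : Subgroup G, IsPGroup 2 U → E < U → Good U
  bad : ∃ y ∈ ceS E, y ≠ 1 ∧ Odd (orderOf y) ∧ ∃ t : G, Iv t y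

def Alpha (E : Subgroup G) : Prop :=
  ∀ y ∈ ceS E, y ≠ 1 → Odd (orderOf y) → ∀ t : G, Iv t y → ∃ D : Subgroup G, IsPGroup 2 D ∧ E < D ∧ y ∈ ceS D

def Beta (E : Subgroup G) : Prop :=
  ∀ U : Subgroup G, IsPGroup 2 U → ∀ x ∈ U, ∀ u ∈ U, x ∈ ceS E → Iv u x → x ∈ E

/-- the unique component. -/
structure Cmp (E K : Subgroup G) : Prop where
  nm : K.Normal
  qs : IsQuasisimple K
  le : K ≤ ceS E
  syl : ∀ U : Subgroup G, IsPGroup 2 U → U ≤ ceS K → U ≤ E

/-- the almost simple configuration. -/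
structure AS (K : Subgroup G) : Prop where
  nm : K.Normal
  simple : IsSimpleGroup K
  nab : ¬ IsMulCommutative K
  faith : ceS K = ⊥
  c : ∀ τ : G, orderOf τ = 2 → ∀ y ∈ K, Commute y τ → Odd (orderOf y) → ∀ t : G, Commute t τ → Iv t y →
    InO (K ⊓ cen τ) y
  d : ∀ y ∈ K, y ≠ 1 → Odd (orderOf y) → ∀ t : G, Iv t y → ∃ σ : G, orderOf σ = 2 ∧ Commute y σ

/-- case I: involution centralizers in `K` have trivial core. -/
structure CI (K : Subgroup G) : Prop extends AS K where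
  one : ∀ z ∈ K, orderOf z = 2 → ∀ y : G, InO (K ⊓ cen z) y → y = 1

/-- the subgroup generated by the 2-elements of `C_K(z)`. -/
def sy (K : Subgroup G) (z : G) : Subgroup G :=
  Subgroup.closure {g | g ∈ K ∧ Commute g z ∧ ∃ k : ℕ, g ^ 2 ^ k = 1}

/-- `Ω₁(Z(D))`. -/
def om (D : Subgroup G) : Subgroup G where
  carrier := {d | d ∈ D ∧ d * d = 1 ∧ ∀ e ∈ D, Commute d e}
  one_mem' := ⟨D.one_mem, one_mul 1, fun e _ => Commute.one_left e⟩
  mul_mem' := by
    rintro a b ⟨ha, ha2, hac⟩ ⟨hb, hb2, hbc⟩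
    refine ⟨D.mul_mem ha hb, ?_, fun e he => (hac e he).mul_left (hbc e he)⟩
    have e : a * b * (a * b) = a * a * (b * b) := by
      rw [mul_assoc, ← mul_assoc b a b, ← (hac b hb).eq, mul_assoc, mul_assoc]
    rw [e, ha2, hb2, one_mul]
  inv_mem' := by
    rintro a ⟨ha, ha2, hac⟩
    exact ⟨D.inv_mem ha, by rw [← mul_inv_rev, ha2, inv_one], fun e he => (hac e he).inv_left⟩

theorem mem_om {D : Subgroup G} {d : G} : d ∈ om D ↔ d ∈ D ∧ d * d = 1 ∧ ∀ e ∈ D, Commute d e := Iff.rfl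

/-- elementary abelian 2-subgroup. -/
def El (V : Subgroup G) : Prop := (∀ a ∈ V, a * a = 1) ∧ ∀ a ∈ V, ∀ b ∈ V, Commute a b

/-- `τ` is an involution and `t` is the only involution of `K` commuting with both. -/
def Tau (K : Subgroup G) (τ t : G) : Prop :=
  orderOf τ = 2 ∧ Commute t τ ∧ ∀ u ∈ K, u * u = 1 → Commute u t → Commute u τ → u = 1 ∨ u = t

/-- a maximal intersection of `sy K z` with another Sylow subgroup. -/
def Mx (K : Subgroup G) (z : G) (D : Subgroup G) : Prop :=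
  z ∈ D ∧ (∃ v ∈ K, orderOf v = 2 ∧ sy K v ≠ sy K z ∧ D = sy K z ⊓ sy K v) ∧
    ∀ U : Subgroup G, D < U → U ≤ sy K z → ∀ w ∈ K, orderOf w = 2 → U ≤ sy K w → sy K w = sy K z

/-- the configuration of order 64. -/
structure Big (K : Subgroup G) (z : G) (V W : Subgroup G) : Prop where
  mx : Mx K z V
  elV : El V
  elW : El W
  cV : Nat.card V = 16
  cW : Nat.card W = 16
  cZ : Nat.card (om (sy K z)) = 4
  inf : V ⊓ W = om (sy K z)
  sup : V ⊔ W = sy K z ⊓ nor V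
  cT : Nat.card (V ⊔ W : Subgroup G) = 64
  cen : ∀ v ∈ V, ∀ w ∈ W, Commute v w → v ∈ W ∨ w ∈ V
  dec : ∀ s ∈ V ⊔ W, ∃ v ∈ V, ∃ w ∈ W, s = v * w
  com : ∀ v ∈ V, ∀ w ∈ W, v * w * v⁻¹ * w⁻¹ ∈ om (sy K z)

/-- all elements of order 4 square to `t`, and every involution commutes with one. -/
def Star (Q : Subgroup G) (t : G) : Prop :=
  (∀ g ∈ Q, orderOf g = 4 → g * g = t) ∧ ∀ u ∈ Q, orderOf u = 2 → ∃ g ∈ Q, orderOf g = 4 ∧ Commute g u

/-- an abelian subgroup of index at most two, and abelian or one central involution. -/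
def Fam (S : Type*) [Group S] : Prop :=
  (∃ B : Subgroup S, IsMulCommutative B ∧ B.index ≤ 2) ∧
    (IsMulCommutative S ∨ ∀ u ∈ Subgroup.center S, ∀ v ∈ Subgroup.center S, orderOf u = 2 → orderOf v = 2 → u = v)

end Cfsg.Agent.RY
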