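import Cfsg.Agent.RY.Defs

set_option autoImplicit false
set_option linter.unusedSectionVars false

namespace Cfsg.Agent.RY

open Cfsg.Agent.DT (cm nor cen cj)

universe u
variable {G : Type u} [Group G] [Finite G] {E K : Subgroup G}

namespace I7aAux

open Equiv

def LA : List (Perm (Fin 5)) := [swap 1 2 * swap 3 4, swap 1 3 * swap 2 4, swap 1 4 * swap 2 3]

def LB : List (Perm (Fin 5)) := [swap 0 2 * swap 3 4, swap 0 3 * swap 2 4, swap 0 4 * swap 2 3]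

theorem memA : ∀ x : Perm (Fin 5), x * x = 1 → (∀ i, x i = i ↔ i = 0) → x ∈ LA := by decide +kernel

theorem memB : ∀ x : Perm (Fin 5), x * x = 1 → (∀ i, x i = i ↔ i = 1) → x ∈ LB := by decide +kernel

set_option synthInstance.maxSize 4096 in
set_option synthInstance.maxHeartbeats 400000 in
theorem fin5 : ∀ a ∈ LA, ∀ a' ∈ LA, a * a' ∈ LA → ∀ b ∈ LB, ∀ b' ∈ LB, b * b' ∈ LB →
    (∃ x ∈ [a, a', a * a'], ∃ y ∈ [b, b', b * b'], (x * y) ^ 5 = 1 ∧ x * y ≠ 1) ∧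
      ∃ x ∈ [a, a', a * a'], ∃ y ∈ [b, b', b * b'], ((x * y) ^ 3 = 1 ∧ x * y ≠ 1) ∧ ∃ i, (x * y) i = i := by
  decide +kernel

theorem mv : ∀ i j : Fin 5, i ≠ j →
    (swap (swap i 0 j) 1 * swap i 0 : Perm (Fin 5)) i = 0 ∧ (swap (swap i 0 j) 1 * swap i 0 : Perm (Fin 5)) j = 1 := by
  decide +kernel

end I7aAux

open I7aAux in
theorem five {Ω : Type*} [Fintype Ω] [DecidableEq Ω] (hc : Fintype.card Ω = 5) {p q : Ω} (hpq : p ≠ q)
    {a a' b b' : Equiv.Perm Ω} (ha : ∀ x ∈ [a, a', a * a'], x * x = 1 ∧ ∀ i, x i = i ↔ i = p)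
    (hb : ∀ x ∈ [b, b', b * b'], x * x = 1 ∧ ∀ i, x i = i ↔ i = q) :
    (∃ x ∈ [a, a', a * a'], ∃ y ∈ [b, b', b * b'], orderOf (x * y) = 5) ∧
      ∃ x ∈ [a, a', a * a'], ∃ y ∈ [b, b', b * b'], orderOf (x * y) = 3 ∧ ∃ i, (x * y) i = i := by
  obtain ⟨e, hp, hq⟩ : ∃ e : Ω ≃ Fin 5, e p = 0 ∧ e q = 1 := by
    let e0 := Fintype.equivFinOfCardEq hc
    have h := mv (e0 p) (e0 q) (fun h => hpq (e0.injective h))
    exact ⟨e0.trans (Equiv.swap (Equiv.swap (e0 p) 0 (e0 q)) 1 * Equiv.swap (e0 p) 0 : Equiv.Perm (Fin 5)), h.1, h.2⟩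
  let φ : Equiv.Perm Ω ≃* Equiv.Perm (Fin 5) := e.permCongrHom
  have hφ : ∀ (x : Equiv.Perm Ω) (i : Fin 5), φ x i = e (x (e.symm i)) := fun x i => rfl
  have fx : ∀ (x : Equiv.Perm Ω) (s : Ω), (∀ i, x i = i ↔ i = s) → ∀ i, φ x i = i ↔ i = e s := by
    intro x s h i
    rw [hφ, ← Equiv.eq_symm_apply, h, Equiv.symm_apply_eq]
  have hA : ∀ x ∈ [a, a', a * a'], φ x ∈ LA := fun x hx =>
    memA _ (by rw [← map_mul, (ha x hx).1, map_one]) (by have := fx x p (ha x hx).2; rwa [hp] at this)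
  have hB : ∀ x ∈ [b, b', b * b'], φ x ∈ LB := fun x hx =>
    memB _ (by rw [← map_mul, (hb x hx).1, map_one]) (by have := fx x q (hb x hx).2; rwa [hq] at this)
  have key := fin5 (φ a) (hA _ (by simp)) (φ a') (hA _ (by simp)) (by rw [← map_mul]; exact hA _ (by simp))
    (φ b) (hB _ (by simp)) (φ b') (hB _ (by simp)) (by rw [← map_mul]; exact hB _ (by simp))
  have pull : ∀ (c c' : Equiv.Perm Ω) (x : Equiv.Perm (Fin 5)), x ∈ [φ c, φ c', φ c * φ c'] →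
      ∃ x0 ∈ [c, c', c * c'], φ x0 = x := by
    intro c c' x hx
    simp only [List.mem_cons, List.not_mem_nil, or_false] at hx
    rcases hx with rfl | rfl | rfl
    · exact ⟨c, by simp, rfl⟩
    · exact ⟨c', by simp, rfl⟩
    · exact ⟨c * c', by simp, map_mul _ _ _⟩
  obtain ⟨⟨x, hx, y, hy, h5, h1⟩, ⟨x', hx', y', hy', ⟨h3, h1'⟩, i, hi⟩⟩ := key
  obtain ⟨x, hx0, rfl⟩ := pull _ _ _ hx
  obtain ⟨y, hy0, rfl⟩ := pull _ _ _ hy
  obtain ⟨x', hx0', rfl⟩ := pull _ _ _ hx'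
  obtain ⟨y', hy0', rfl⟩ := pull _ _ _ hy'
  haveI : Fact (Nat.Prime 5) := ⟨by norm_num⟩
  haveI : Fact (Nat.Prime 3) := ⟨by norm_num⟩
  refine ⟨⟨x, hx0, y, hy0, ?_⟩, x', hx0', y', hy0', ?_, e.symm i, ?_⟩
  · rw [← φ.orderOf_eq, map_mul]; exact orderOf_eq_prime h5 h1
  · rw [← φ.orderOf_eq, map_mul]; exact orderOf_eq_prime h3 h1'
  · rw [← map_mul, hφ, ← Equiv.eq_symm_apply] at hi; exact hi

theorem odd_part {H : Type*} [Group H] (f : G →* H) {x y : G} (hx : x * x = 1) (hy : y * y = 1) {r : ℕ} (hr : r.Prime)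
    (h : orderOf (f (x * y)) = r) (h2 : r ≠ 2) :
    (∃ g ∈ Subgroup.zpowers (x * y), orderOf g = r ∧ Iv x g) ∧
      ∃ g ∈ Subgroup.zpowers (x * y), g ≠ 1 ∧ Odd (orderOf g) ∧ Iv x g := by
  have hd : r ∣ orderOf (x * y) := h ▸ orderOf_map_dvd f (x * y)
  have ho : orderOf ((x * y) ^ (orderOf (x * y) / r)) = r :=
    orderOf_pow_orderOf_div (orderOf_pos (x * y)).ne' hd
  have hy' : y⁻¹ = y := inv_eq_of_mul_eq_one_right hy
  have hi : x * (x * y) * x⁻¹ = (x * y)⁻¹ := by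
    rw [← mul_assoc, hx, one_mul, mul_inv_rev, hy']
  have hiv : Iv x ((x * y) ^ (orderOf (x * y) / r)) := by
    unfold Iv
    rw [← conj_pow, hi, inv_pow]
  have hm : (x * y) ^ (orderOf (x * y) / r) ∈ Subgroup.zpowers (x * y) :=
    Subgroup.pow_mem _ (Subgroup.mem_zpowers _) _
  refine ⟨⟨_, hm, ho, hiv⟩, _, hm, ?_, ?_, hiv⟩
  · intro h1
    rw [h1, orderOf_one] at ho
    exact hr.one_lt.ne ho
  · rw [ho]; exact hr.odd_of_ne_two h2

end Cfsg.Agent.RY
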