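import Cfsg.Agent.RY.Lift

/-! Project RY (S3860): odd order automorphisms of 2-groups with an abelian subgroup of index two. -/

set_option autoImplicit false
set_option linter.unusedSectionVars false

namespace Cfsg.Agent.RY

open Cfsg.Agent.DT (cm nor cen cj)

namespace J1Aux

variable {G : Type*} [Group G] [Finite G]

theorem fixc {Q : Subgroup G} (hQ : IsPGroup 2 Q) {x a c : G} (ho : Odd (orderOf x)) (hc : c ∈ Q)
    (hxc : Commute x c) (h : x * a * x⁻¹ = c * a) : Commute x a := by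
  have h1 : ∀ n : ℕ, x ^ n * a * (x ^ n)⁻¹ = c ^ n * a := by
    intro n
    induction n with
    | zero => simp
    | succ n ih =>
      have e : x * c ^ n * x⁻¹ = c ^ n := by rw [(hxc.pow_right n).eq]; group
      calc x ^ (n + 1) * a * (x ^ (n + 1))⁻¹ = x * (x ^ n * a * (x ^ n)⁻¹) * x⁻¹ := by rw [pow_succ']; group
        _ = (x * c ^ n * x⁻¹) * (x * a * x⁻¹) := by rw [ih]; group
        _ = c ^ (n + 1) * a := by rw [e, h, pow_succ, mul_assoc]
  have h2 : c ^ orderOf x = 1 := by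
    have := h1 (orderOf x)
    rw [pow_orderOf_eq_one, one_mul, inv_one, mul_one] at this
    exact mul_right_cancel (b := a) (by rw [← this, one_mul])
  obtain ⟨k, hk⟩ := hQ ⟨c, hc⟩
  have h3 : c ^ 2 ^ k = 1 := by simpa using congrArg Subtype.val hk
  have cop : Nat.Coprime (orderOf x) (2 ^ k) := (Nat.coprime_two_right.2 ho).pow_right k
  have h4 : c = 1 := orderOf_eq_one_iff.1
    (Nat.eq_one_of_dvd_coprimes cop (orderOf_dvd_of_pow_eq_one h2) (orderOf_dvd_of_pow_eq_one h3))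
  rw [h4, one_mul] at h
  exact mul_inv_eq_iff_eq_mul.1 h

theorem ab {Q A : Subgroup G} (hQ : IsPGroup 2 Q) (hr : ∀ V : Subgroup G, El V → V ≤ Q → Nat.card V ≤ 4)
    (hA : A ≤ Q) (hc : ∀ a ∈ A, ∀ b ∈ A, Commute a b) {t x : G} (ht : t ∈ A) (ht2 : t * t = 1) (ht1 : t ≠ 1)
    (hx : ∀ a ∈ A, x * a * x⁻¹ ∈ A) (ho : Odd (orderOf x)) (hxt : Commute x t) : ∀ a ∈ A, Commute x a := by
  classical
  have s1 : ∀ u ∈ A, u * u = 1 → Commute x u := by
    intro u hu hu2
    by_cases e1 : u = 1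
    · rw [e1]; exact Commute.one_right x
    by_cases e2 : u = t
    · rw [e2]; exact hxt
    by_cases e3 : x * u * x⁻¹ = u
    · exact mul_inv_eq_iff_eq_mul.1 e3
    by_cases e4 : x * u * x⁻¹ = t * u
    · exact fixc hQ ho (hA ht) hxt e4
    exfalso
    have e5 : x * u * x⁻¹ ≠ 1 := fun h => e1 (by simpa using h)
    have e6 : x * u * x⁻¹ ≠ t := fun h => e2 (by
      have : x * t * x⁻¹ = t := by rw [hxt.eq]; group
      rw [← this] at h
      simpa using h)
    have e7 : t * u ≠ 1 := fun h => e2 (mul_left_cancel (a := t) (by rw [h, ht2]))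
    have e8 : t * u ≠ t := fun h => e1 (by simpa using h)
    have e9 : t * u ≠ u := fun h => ht1 (by simpa using h)
    have mem : ∀ a ∈ A, a * a = 1 → a ∈ om A := fun a ha h => mem_om.2 ⟨ha, h, fun e he => hc a ha e he⟩
    have hV := hr (om A) ⟨fun a ha => (mem_om.1 ha).2.1, fun a ha b hb => hc a (mem_om.1 ha).1 b (mem_om.1 hb).1⟩
      (fun a ha => hA (mem_om.1 ha).1)
    have sub : ((({x * u * x⁻¹, t * u, u, t, 1} : Finset G)) : Set G) ⊆ (om A : Set G) := by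
      intro a ha
      simp only [Finset.coe_insert, Finset.coe_singleton, Set.mem_insert_iff, Set.mem_singleton_iff] at ha
      rcases ha with rfl | rfl | rfl | rfl | rfl
      · exact mem _ (hx u hu) (by
          calc x * u * x⁻¹ * (x * u * x⁻¹) = x * (u * u) * x⁻¹ := by group
            _ = 1 := by rw [hu2]; group)
      · exact (om A).mul_mem (mem _ ht ht2) (mem _ hu hu2)
      · exact mem _ hu hu2
      · exact mem _ ht ht2
      · exact (om A).one_mem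
    have c5 : ({x * u * x⁻¹, t * u, u, t, 1} : Finset G).card = 5 := by
      rw [Finset.card_insert_of_notMem (by simp only [Finset.mem_insert, Finset.mem_singleton]; tauto),
        Finset.card_insert_of_notMem (by simp only [Finset.mem_insert, Finset.mem_singleton]; tauto),
        Finset.card_insert_of_notMem (by simp only [Finset.mem_insert, Finset.mem_singleton]; tauto),
        Finset.card_pair ht1]
    have := Set.ncard_le_ncard sub (Set.toFinite _)
    rw [Set.ncard_coe_finset, c5] at this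
    have e : (om A : Set G).ncard = Nat.card (om A) := rfl
    omega
  have s2 : ∀ k : ℕ, ∀ a ∈ A, a ^ 2 ^ k = 1 → Commute x a := by
    intro k
    induction k with
    | zero => intro a _ h; rw [pow_zero, pow_one] at h; rw [h]; exact Commute.one_right x
    | succ k ih =>
      intro a ha h
      have h1 : Commute x (a * a) := ih _ (A.mul_mem ha ha) (by rw [← pow_two, ← pow_mul, ← pow_succ', h])
      have hcA : x * a * x⁻¹ * a⁻¹ ∈ A := A.mul_mem (hx a ha) (A.inv_mem ha)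
      have h2 : Commute (x * a * x⁻¹) a⁻¹ := hc _ (hx a ha) _ (A.inv_mem ha)
      refine fixc hQ ho (hA hcA) (s1 _ hcA ?_) (by group)
      calc x * a * x⁻¹ * a⁻¹ * (x * a * x⁻¹ * a⁻¹)
          = x * a * x⁻¹ * (a⁻¹ * (x * a * x⁻¹)) * a⁻¹ := by group
        _ = x * (a * a) * x⁻¹ * (a * a)⁻¹ := by rw [← h2.eq]; group
        _ = 1 := by rw [h1.eq]; group
  intro a ha
  obtain ⟨k, hk⟩ := hQ ⟨a, hA ha⟩
  exact s2 k a ha (by simpa using congrArg Subtype.val hk)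

theorem four {z : G} {k : ℕ} (h : z ^ 2 ^ k = 1) (h2 : z * z ≠ 1) : ∃ n : ℕ, orderOf (z ^ n) = 4 := by
  obtain ⟨j, -, hj⟩ := (Nat.dvd_prime_pow Nat.prime_two).1 (orderOf_dvd_of_pow_eq_one h)
  have hj2 : 2 ≤ j := by
    by_contra hlt
    apply h2
    rw [← pow_two]
    apply orderOf_dvd_iff_pow_eq_one.1
    rw [hj]
    have : j = 0 ∨ j = 1 := by omega
    rcases this with rfl | rfl <;> norm_num
  obtain ⟨i, rfl⟩ := Nat.exists_eq_add_of_le hj2
  refine ⟨2 ^ i, ?_⟩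
  rw [orderOf_pow_of_dvd (by positivity) (by rw [hj]; exact pow_dvd_pow 2 (by omega)), hj, pow_add,
    Nat.mul_div_cancel _ (by positivity)]
  norm_num

theorem prop (p1 p2 : Prop) {p3 p4 p5 p6 : Prop} (n1 : ¬ (p3 ∧ p4)) (n2 : ¬ (p5 ∧ p6))
    (n3 : ¬ ((p3 ↔ p5) ∧ (p4 ↔ p6))) :
    (p1 ∧ p2) ∨ ((p1 ↔ p3) ∧ (p2 ↔ p4)) ∨ ((p1 ↔ p5) ∧ (p2 ↔ p6)) ∨ ((p1 ↔ (p3 ↔ p5)) ∧ (p2 ↔ (p4 ↔ p6))) := by
  by_cases h1 : p1 <;> by_cases h2 : p2 <;> by_cases h3 : p3 <;> by_cases h4 : p4 <;> by_cases h5 : p5 <;>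
    by_cases h6 : p6 <;> simp_all

end J1Aux

universe u
variable {G : Type u} [Group G] [Finite G] {E K : Subgroup G}

theorem fam_aut {Q B : Subgroup G} (hQ : IsPGroup 2 Q) (hr : ∀ V : Subgroup G, El V → V ≤ Q → Nat.card V ≤ 4)
    (hB : B ≤ Q) (hBc : ∀ a ∈ B, ∀ b ∈ B, Commute a b) (hi : B.relIndex Q ≤ 2) {t x : G} (ht : t ∈ om Q) (ht1 : t ≠ 1)
    (hu : (∀ a ∈ Q, ∀ b ∈ Q, Commute a b) ∨ ∀ u ∈ om Q, u = 1 ∨ u = t) (hx : x ∈ nor Q) (ho : Odd (orderOf x))
    (hxt : Commute x t) : x ∈ ceS Q ∨ Star Q t := by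
  obtain ⟨htQ, ht2, htc⟩ := mem_om.1 ht
  have hxQ : ∀ a, a ∈ Q ↔ x * a * x⁻¹ ∈ Q := DT.mem_nor.1 hx
  have fin : (∀ a ∈ Q, Commute x a) → x ∈ ceS Q ∨ Star Q t := fun h =>
    Or.inl (Subgroup.mem_centralizer_iff.2 fun a ha => (h a ha).symm.eq)
  by_cases hab : ∀ a ∈ Q, ∀ b ∈ Q, Commute a b
  · exact fin (J1Aux.ab hQ hr le_rfl hab htQ ht2 ht1 (fun a ha => (hxQ a).1 ha) ho hxt)
  have hu' := hu.resolve_left hab
  have h2 : B.relIndex Q = 2 := by
    have h0 : B.relIndex Q ≠ 0 := Subgroup.index_ne_zero_of_finite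
    have h1 : B.relIndex Q ≠ 1 := fun h => by
      have := Subgroup.relIndex_eq_one.1 h
      exact hab fun a ha b hb => hBc a (this ha) b (this hb)
    omega
  have mB : ∀ a ∈ Q, ∀ c ∈ Q, (a * c ∈ B ↔ (a ∈ B ↔ c ∈ B)) := fun a ha c hc =>
    Subgroup.mul_mem_iff_of_index_two (H := B.subgroupOf Q) h2 (a := ⟨a, ha⟩) (b := ⟨c, hc⟩)
  -- an element outside `B` commuting with `z ∈ B` makes `z` central
  have cenB : ∀ s ∈ Q, s ∉ B → ∀ z : G, (∀ b ∈ B, Commute z b) → Commute z s → ∀ a ∈ Q, Commute z a := by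
    intro s hs hsB z h1 h3 a ha
    by_cases haB : a ∈ B
    · exact h1 a haB
    · have := (h1 _ ((mB a ha s hs).2 (iff_of_false haB hsB))).mul_right h3.inv_right
      rwa [mul_inv_cancel_right] at this
  have htB : t ∈ B := by
    by_contra h
    refine hab fun a ha => ?_
    have k : ∀ b ∈ B, ∀ c ∈ Q, Commute b c := fun b hb =>
      cenB t htQ h b (fun c hc => hBc b hb c hc) (htc b (hB hb)).symm
    exact cenB t htQ h a (fun b hb => (k b hb a ha).symm) (htc a ha).symm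
  by_cases hn : ∀ b ∈ B, x * b * x⁻¹ ∈ B
  · have cB := J1Aux.ab hQ hr hB hBc htB ht2 ht1 hn ho hxt
    refine fin fun a ha => ?_
    by_cases haB : a ∈ B
    · exact cB a haB
    have h3 : x * a * x⁻¹ ∉ B := fun h => haB (by
      have e := (cB _ h).eq
      have : x * a * x⁻¹ = a := by
        have e' : x * (x * a * x⁻¹) = x * a := by rw [e]; group
        exact mul_left_cancel e'
      rwa [this] at h)
    have h4 : x * a * x⁻¹ * a⁻¹ ∈ B :=
      (mB _ ((hxQ a).1 ha) _ (Q.inv_mem ha)).2 (iff_of_false h3 fun h => haB (inv_mem_iff.1 h))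
    exact J1Aux.fixc hQ ho (hB h4) (cB _ h4) (by group)
  push Not at hn
  obtain ⟨b, hb, hb'⟩ := hn
  have hxQ' : ∀ a ∈ Q, x⁻¹ * a * x ∈ Q := fun a ha => (hxQ _).2 (by simpa [mul_assoc] using ha)
  have mB' : ∀ a ∈ Q, ∀ c ∈ Q, (x⁻¹ * (a * c) * x ∈ B ↔ (x⁻¹ * a * x ∈ B ↔ x⁻¹ * c * x ∈ B)) := by
    intro a ha c hc
    rw [← mB _ (hxQ' a ha) _ (hxQ' c hc)]
    have : x⁻¹ * (a * c) * x = x⁻¹ * a * x * (x⁻¹ * c * x) := by group
    rw [this]
  have cZ : ∀ z ∈ B, x⁻¹ * z * x ∈ B → ∀ a ∈ Q, Commute z a := by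
    intro z hz hz'
    refine cenB _ ((hxQ b).1 (hB hb)) hb' z (hBc z hz) ?_
    have e := (hBc _ hz' b hb).eq
    show z * (x * b * x⁻¹) = x * b * x⁻¹ * z
    calc z * (x * b * x⁻¹) = x * (x⁻¹ * z * x * b) * x⁻¹ := by group
      _ = x * b * x⁻¹ * z := by rw [e]; group
  have sqB : ∀ a ∈ Q, a * a ∈ B ∧ x⁻¹ * (a * a) * x ∈ B := fun a ha =>
    ⟨(mB a ha a ha).2 Iff.rfl, (mB' a ha a ha).2 Iff.rfl⟩
  have st1 : ∀ g ∈ Q, orderOf g = 4 → g * g = t := by
    intro g hg h4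
    have e4 : g * g * (g * g) = 1 := by
      have := pow_orderOf_eq_one g
      rw [h4] at this
      rw [← this]; simp only [pow_succ, pow_zero, one_mul, mul_assoc]
    refine (hu' _ (mem_om.2 ⟨Q.mul_mem hg hg, e4, cZ _ (sqB g hg).1 (sqB g hg).2⟩)).resolve_left fun h => ?_
    have := orderOf_dvd_of_pow_eq_one (show g ^ 2 = 1 by rw [pow_two, h])
    rw [h4] at this
    omega
  by_cases h4 : ∃ z ∈ Q, (∀ a ∈ Q, Commute z a) ∧ z * z ≠ 1
  · obtain ⟨z, hz, hzc, hz2⟩ := h4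
    obtain ⟨k, hk⟩ := hQ ⟨z, hz⟩
    obtain ⟨n, hn⟩ := J1Aux.four (z := z) (k := k) (by simpa using congrArg Subtype.val hk) hz2
    exact Or.inr ⟨st1, fun u hu _ => ⟨z ^ n, Q.pow_mem hz n, hn, (hzc u hu).pow_left n⟩⟩
  push Not at h4
  have hZ : ∀ z ∈ Q, z ∈ B ∧ x⁻¹ * z * x ∈ B → z = 1 ∨ z = t := fun z hz h =>
    hu' z (mem_om.2 ⟨hz, h4 z hz (cZ z h.1 h.2), cZ z h.1 h.2⟩)
  obtain ⟨g, hg, hg2⟩ : ∃ g ∈ Q, g * g ≠ 1 := by
    by_contra h
    push Not at h
    refine hab fun a ha c hc => ?_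
    have e1 := h a ha
    have e2 := h c hc
    have e3 := h _ (Q.mul_mem ha hc)
    show a * c = c * a
    calc a * c = a * (a * c * (a * c)) * c := by
          rw [e3, mul_one]
      _ = a * a * (c * a) * (c * c) := by group
      _ = c * a := by rw [e1, e2]; group
  have gt : g * g = t := (hZ _ (Q.mul_mem hg hg) (sqB g hg)).resolve_left hg2
  have g4 : orderOf g = 4 := by
    have : Fact (Nat.Prime 2) := ⟨Nat.prime_two⟩
    have := orderOf_eq_prime_pow (p := 2) (n := 1) (x := g) (by rw [pow_one, pow_two]; exact hg2)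
      (by rw [show 2 ^ (1 + 1) = 2 * 2 by norm_num, pow_mul, pow_two g, gt, pow_two, ht2])
    simpa using this
  by_cases hall : ∀ u ∈ Q, orderOf u = 2 → Commute g u
  · exact Or.inr ⟨st1, fun u hu h => ⟨g, hg, g4, hall u hu h⟩⟩
  push Not at hall
  obtain ⟨u, huQ, hu2, hgu⟩ := hall
  have u2 : u * u = 1 := by rw [← pow_two, ← hu2, pow_orderOf_eq_one]
  have hguQ := Q.mul_mem hg huQ
  have zc : ∀ z, z = 1 ∨ z = t → z ∈ Q ∧ z * z = 1 ∧ Commute x z ∧ ∀ a ∈ Q, Commute z a := by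
    rintro z (rfl | rfl)
    · exact ⟨Q.one_mem, one_mul 1, Commute.one_right x, fun a _ => Commute.one_left a⟩
    · exact ⟨htQ, ht2, hxt, htc⟩
  have gu2 : g * u * (g * u) = 1 := by
    refine (hZ _ (Q.mul_mem hguQ hguQ) (sqB _ hguQ)).resolve_right fun h => hgu ?_
    rw [← gt] at h
    show g * u = u * g
    calc g * u = g⁻¹ * (g * g) * u := by group
      _ = u * g * (u * u) := by rw [← h]; group
      _ = u * g := by rw [u2, mul_one]
  have n1 : ¬ (g ∈ B ∧ x⁻¹ * g * x ∈ B) := fun h => hg2 (zc _ (hZ g hg h)).2.1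
  have n2 : ¬ (u ∈ B ∧ x⁻¹ * u * x ∈ B) := fun h => hgu ((zc _ (hZ u huQ h)).2.2.2 g hg).symm
  have n3 : ¬ (g * u ∈ B ∧ x⁻¹ * (g * u) * x ∈ B) := fun h => hgu (by
    have := (Commute.refl g).inv_left.symm.mul_right ((zc _ (hZ _ hguQ h)).2.2.2 g hg).symm
    rwa [inv_mul_cancel_left] at this)
  have cls : ∀ e ∈ Q, ∃ z, (z = 1 ∨ z = t) ∧ (e * 1 = z ∨ e * g = z ∨ e * u = z ∨ e * (g * u) = z) := by
    intro e he
    have k1 := hZ e he
    have k2 := hZ _ (Q.mul_mem he hg)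
    have k3 := hZ _ (Q.mul_mem he huQ)
    have k4 := hZ _ (Q.mul_mem he hguQ)
    rw [mB e he g hg, mB' e he g hg] at k2
    rw [mB e he u huQ, mB' e he u huQ] at k3
    rw [mB e he _ hguQ, mB' e he _ hguQ, mB g hg u huQ, mB' g hg u huQ] at k4
    rw [mB g hg u huQ, mB' g hg u huQ] at n3
    rcases J1Aux.prop (e ∈ B) (x⁻¹ * e * x ∈ B) n1 n2 n3 with h | h | h | h
    · exact ⟨_, k1 h, Or.inl (mul_one e)⟩
    · exact ⟨_, k2 h, Or.inr (Or.inl rfl)⟩
    · exact ⟨_, k3 h, Or.inr (Or.inr (Or.inl rfl))⟩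
    · exact ⟨_, k4 h, Or.inr (Or.inr (Or.inr rfl))⟩
  have sq : ∀ e w z : G, w ∈ Q → (z = 1 ∨ z = t) → e * w = z → w * w = 1 → e = z * w ∧ e * e = 1 := by
    intro e w z hw hz h h1
    obtain ⟨-, z2, -, z3⟩ := zc z hz
    have e1 : e = z * w := by rw [← h, mul_assoc, h1, mul_one]
    refine ⟨e1, ?_⟩
    rw [e1]
    calc z * w * (z * w) = z * (w * z) * w := by group
      _ = z * z * (w * w) := by rw [← (z3 w hw).eq]; group
      _ = 1 := by rw [z2, h1, one_mul]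
  have xt : x * t * x⁻¹ = t := by rw [hxt.eq]; group
  have xg : Commute x g := by
    have hh : x * g * x⁻¹ * (x * g * x⁻¹) ≠ 1 := by
      rw [show x * g * x⁻¹ * (x * g * x⁻¹) = x * (g * g) * x⁻¹ by group, gt, xt]; exact ht1
    obtain ⟨z, hz, h | h | h | h⟩ := cls _ ((hxQ g).1 hg)
    · exact absurd (sq _ _ _ Q.one_mem hz h (one_mul 1)).2 hh
    · refine J1Aux.fixc hQ ho (Q.mul_mem (zc z hz).1 htQ) ((zc z hz).2.2.1.mul_right hxt) ?_
      calc x * g * x⁻¹ = x * g * x⁻¹ * (t * t) := by rw [ht2, mul_one]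
        _ = x * g * x⁻¹ * g * (g * t) := by rw [← gt]; group
        _ = z * t * g := by rw [h, ← (htc g hg).eq, mul_assoc]
    · exact absurd (sq _ _ _ huQ hz h u2).2 hh
    · exact absurd (sq _ _ _ hguQ hz h gu2).2 hh
  have xu : Commute x u := by
    have hv := (hxQ u).1 huQ
    have v2 : x * u * x⁻¹ * (x * u * x⁻¹) = 1 := by
      rw [show x * u * x⁻¹ * (x * u * x⁻¹) = x * (u * u) * x⁻¹ by group, u2]; group
    obtain ⟨z, hz, h | h | h | h⟩ := cls _ hv
    · rw [mul_one] at h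
      have e := (zc z hz).2.2.1.eq
      have : u = z := by
        calc u = x⁻¹ * (x * u * x⁻¹) * x := by group
          _ = x⁻¹ * (z * x) := by rw [h, mul_assoc]
          _ = z := by rw [← e]; group
      rw [this]; exact (zc z hz).2.2.1
    · refine absurd (sq g _ z hv hz ?_ v2).2 hg2
      calc g * (x * u * x⁻¹) = g * (x * u * x⁻¹ * g) * g⁻¹ := by group
        _ = z := by rw [h, ← ((zc z hz).2.2.2 g hg).eq]; group
    · exact J1Aux.fixc hQ ho (zc z hz).1 (zc z hz).2.2.1 (sq _ _ _ huQ hz h u2).1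
    · refine J1Aux.fixc hQ ho (Q.mul_mem (zc z hz).1 hg) ((zc z hz).2.2.1.mul_right xg) ?_
      rw [(sq _ _ _ hguQ hz h gu2).1, mul_assoc]
  refine fin fun e he => ?_
  have key : ∀ w z : G, (z = 1 ∨ z = t) → e * w = z → Commute x w → Commute x e := by
    intro w z hz h hw
    have := (zc z hz).2.2.1.mul_right hw.inv_right
    rwa [← h, mul_inv_cancel_right] at this
  obtain ⟨z, hz, h | h | h | h⟩ := cls e he
  · exact key _ z hz h (Commute.one_right x)
  · exact key _ z hz h xg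
  · exact key _ z hz h xu
  · exact key _ z hz h (xg.mul_right xu)

end Cfsg.Agent.RY
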