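import Cfsg.Agent.RY.Defs

set_option autoImplicit false
set_option linter.unusedSectionVars false

namespace Cfsg.Agent.RY

open Cfsg.Agent.DT (cm nor cen cj)

universe u
variable {G : Type u} [Group G] [Finite G] {E K : Subgroup G}

namespace J2Aux

open Subgroup

variable {S : Type*} [Group S] [Finite S]

theorem dec {B : Subgroup S} (h : B.index ≤ 2) {w : S} (hw : w ∉ B) (a : S) : a ∈ B ∨ ∃ b ∈ B, a = w * b := by
  have h0 : B.index ≠ 0 := index_ne_zero_of_finite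
  have h1 : B.index ≠ 1 := fun e => hw (index_eq_one.1 e ▸ mem_top w)
  by_cases k : a ∈ B
  · exact .inl k
  · exact .inr ⟨w⁻¹ * a, (mul_mem_iff_of_index_two (by omega)).2 (by simp [k, hw]), by group⟩

theorem cmm {B : Subgroup S} (hB : IsMulCommutative B) {a b : S} (ha : a ∈ B) (hb : b ∈ B) : Commute a b :=
  congrArg Subtype.val (hB.is_comm.comm (⟨a, ha⟩ : B) ⟨b, hb⟩)

theorem ab {B C : Subgroup S} (hB : IsMulCommutative B) (h : B.index ≤ 2) {w : S} (hw : w ∉ B) (hC : w ∈ C)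
    (c : ∀ a ∈ C, Commute w a) : ∀ a ∈ C, ∀ b ∈ C, Commute a b := by
  intro a ha b hb
  rcases dec h hw a with k | ⟨a', k, rfl⟩ <;> rcases dec h hw b with l | ⟨b', l, rfl⟩
  · exact cmm hB k l
  · exact (c a ha).symm.mul_right (cmm hB k l)
  · exact (c b hb).mul_left (cmm hB k l)
  · exact (c _ hb).mul_left ((c _ ((mul_mem_cancel_left hC).1 ha)).symm.mul_right (cmm hB k l))

theorem uq {w u v : S} (hu : u ∈ zpowers w) (hv : v ∈ zpowers w) (h1 : orderOf u = 2) (h2 : orderOf v = 2) :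
    u = v := by
  classical
  have := Fintype.ofFinite (zpowers w)
  by_contra n
  have k := IsCyclic.card_pow_eq_one_le (α := zpowers w) (n := 2) two_pos
  have s : ({1, ⟨u, hu⟩, ⟨v, hv⟩} : Finset (zpowers w)) ⊆ Finset.univ.filter fun a => a ^ 2 = 1 := by
    intro a ha
    simp only [Finset.mem_insert, Finset.mem_singleton] at ha
    rw [Finset.mem_filter]
    refine ⟨Finset.mem_univ _, ?_⟩
    rcases ha with rfl | rfl | rfl
    · exact one_pow _
    · exact Subtype.ext (h1 ▸ pow_orderOf_eq_one u)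
    · exact Subtype.ext (h2 ▸ pow_orderOf_eq_one v)
  have u1 : u ≠ 1 := fun e => by simp [e] at h1
  have v1 : v ≠ 1 := fun e => by simp [e] at h2
  have := (Finset.card_le_card s).trans k
  rw [Finset.card_eq_three.2 ⟨_, _, _, fun e => u1 (congrArg Subtype.val e).symm,
    fun e => v1 (congrArg Subtype.val e).symm, fun e => n (congrArg Subtype.val e), rfl⟩] at this
  omega

theorem gen {B : Subgroup S} (hB : IsMulCommutative B) (h : B.index ≤ 2) (w : S)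
    (c : ∀ u ∈ center S, u ∈ B → u ∈ zpowers w) : Fam S := by
  refine ⟨⟨B, hB, h⟩, ?_⟩
  by_cases k : ∀ u ∈ center S, u ∈ B
  · exact .inr fun u hu v hv => uq (c u hu (k u hu)) (c v hv (k v hv))
  · push Not at k
    obtain ⟨u, hu, n⟩ := k
    exact .inl ⟨⟨fun a b => ab (C := ⊤) hB h n (mem_top _) (fun a _ => (mem_center_iff.1 hu a).symm) a (mem_top _) b
      (mem_top _)⟩⟩

theorem idx {B : Subgroup S} (h : Nat.card S = 2 * Nat.card B) : B.index ≤ 2 :=
  (Nat.eq_of_mul_eq_mul_right Nat.card_pos (B.index_mul_card.trans h)).le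

theorem cyc (x : S) (h : Nat.card S = 2 * orderOf x) : Fam S :=
  gen (B := zpowers x) inferInstance (idx (by rw [h, Nat.card_zpowers])) x fun _ _ h => h

theorem wr (h : IsWreathed S) : Fam S := by
  obtain ⟨n, -, hc, x, y, z, ox, cm, dj, oz, e⟩ := h
  have cm' : Commute x y := cm
  have z2 : z * z = 1 := by rw [← pow_two, ← oz, pow_orderOf_eq_one]
  have e' : z * y * z⁻¹ = x := by
    rw [← e]
    calc _ = z * z * x * (z * z)⁻¹ := by group
      _ = _ := by rw [z2]; group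
  have oy : orderOf y = 2 ^ n := by
    rw [← e, ← ox]
    exact (MulAut.conj z).orderOf_eq x
  have key : ∀ a ∈ zpowers x, a ∈ zpowers y → a = 1 := fun a h1 h2 => mem_bot.1 (dj ▸ mem_inf.2 ⟨h1, h2⟩)
  let f : zpowers x × zpowers y →* S := MonoidHom.noncommCoprod (zpowers x).subtype (zpowers y).subtype (by
    rintro ⟨_, i, rfl⟩ ⟨_, j, rfl⟩
    exact cm'.zpow_zpow i j)
  have hf : Function.Injective f := (injective_iff_map_eq_one f).2 fun a ha => by
    have k : (a.1 : S) = (a.2 : S)⁻¹ := eq_inv_of_mul_eq_one_left ha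
    have k1 := key _ a.1.2 (k ▸ inv_mem a.2.2)
    exact Prod.ext (Subtype.ext k1) (Subtype.ext (inv_eq_one.1 (k.symm.trans k1)))
  refine gen (B := f.range) ⟨⟨?_⟩⟩ (idx ?_) (x * y) ?_
  · rintro ⟨_, a, rfl⟩ ⟨_, b, rfl⟩
    refine Subtype.ext ?_
    show f a * f b = f b * f a
    rw [← map_mul, ← map_mul]
    exact congrArg f (Prod.ext (mul_comm' _ _) (mul_comm' _ _))
  · rw [← Nat.card_congr (MonoidHom.ofInjective hf).toEquiv, Nat.card_prod, Nat.card_zpowers, Nat.card_zpowers, ox, oy, hc]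
    ring
  · rintro _ hu ⟨⟨⟨_, i, rfl⟩, ⟨_, j, rfl⟩⟩, rfl⟩
    change x ^ i * y ^ j ∈ _ at hu ⊢
    have k : y ^ i * x ^ j = x ^ i * y ^ j := by
      have := mul_inv_eq_iff_eq_mul.2 (mem_center_iff.1 hu z)
      rwa [← conj_mul, ← conj_zpow, ← conj_zpow, e, e'] at this
    have k2 : (x ^ j)⁻¹ * x ^ i = y ^ i * (y ^ j)⁻¹ := by
      rw [inv_mul_eq_iff_eq_mul, ← mul_assoc, (cm'.zpow_zpow j i).eq, k, mul_inv_cancel_right]
    have k3 := key _ (mul_mem (inv_mem (zpow_mem_zpowers x j)) (zpow_mem_zpowers x i))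
      (k2 ▸ mul_mem (zpow_mem_zpowers y i) (inv_mem (zpow_mem_zpowers y j)))
    rw [← inv_mul_eq_one.1 k3, ← cm'.mul_zpow]
    exact zpow_mem_zpowers _ _

end J2Aux

theorem fam_of {S : Type*} [Group S] [Finite S] (hS : IsPGroup 2 S)
    (h : (∃ m : ℕ, 2 ≤ m ∧ Nonempty (S ≃* DihedralGroup m)) ∨ IsQuasiDihedral S ∨ IsWreathed S ∨
      ∃ n : ℕ, 2 ≤ n ∧ Nonempty (S ≃* Multiplicative (ZMod (2 ^ n) × ZMod (2 ^ n)))) : Fam S := by
  rcases h with ⟨m, -, ⟨e⟩⟩ | ⟨n, -, hc, x, -, ox, -⟩ | h | ⟨n, -, ⟨e⟩⟩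
  · exact J2Aux.cyc (e.symm (DihedralGroup.r 1)) (by
      rw [e.symm.orderOf_eq, DihedralGroup.orderOf_r_one, Nat.card_congr e.toEquiv, DihedralGroup.nat_card])
  · exact J2Aux.cyc x (by rw [hc, ox, pow_succ'])
  · exact J2Aux.wr h
  · have k : ∀ a b : S, a * b = b * a := fun a b => e.injective (by rw [map_mul, map_mul, mul_comm])
    exact ⟨⟨⊤, ⟨⟨fun a b => Subtype.ext (k _ _)⟩⟩, by simp⟩, .inl ⟨⟨k⟩⟩⟩

theorem fam_cen {S : Subgroup G} (hS : Fam ↥S) {t : G} (ht : t ∈ S) (ht2 : orderOf t = 2) :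
    ∃ B : Subgroup G, B ≤ S ⊓ cen t ∧ (∀ a ∈ B, ∀ b ∈ B, Commute a b) ∧ B.relIndex (S ⊓ cen t) ≤ 2 ∧
      ((∀ a ∈ S ⊓ cen t, ∀ b ∈ S ⊓ cen t, Commute a b) ∨ ∀ u ∈ om (S ⊓ cen t), u = 1 ∨ u = t) := by
  obtain ⟨⟨B, hB, hi⟩, h⟩ := hS
  refine ⟨B.map S.subtype ⊓ (S ⊓ cen t), inf_le_right, ?_, ?_, ?_⟩
  · rintro _ ⟨⟨a, ha, rfl⟩, -⟩ _ ⟨⟨b, hb, rfl⟩, -⟩
    exact (J2Aux.cmm hB ha hb).map S.subtype
  · have e : (B.map S.subtype).relIndex S = B.index :=
      congrArg Subgroup.index (Subgroup.comap_map_eq_self_of_injective S.subtype_injective B)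
    rw [Subgroup.inf_relIndex_right]
    exact (Subgroup.relIndex_le_of_le_right inf_le_left (e ▸ Subgroup.index_ne_zero_of_finite)).trans (e ▸ hi)
  by_cases k : ∀ a ∈ S ⊓ cen t, ∀ b ∈ S ⊓ cen t, Commute a b
  · exact .inl k
  refine .inr fun u hu => ?_
  have k' : ¬ ∀ a ∈ (cen t).subgroupOf S, ∀ b ∈ (cen t).subgroupOf S, Commute a b := fun e =>
    k fun a ha b hb => (e ⟨a, ha.1⟩ ha.2 ⟨b, hb.1⟩ hb.2).map S.subtype
  have tB : (⟨t, ht⟩ : S) ∈ B := by
    by_contra n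
    exact k' (J2Aux.ab hB hi n (DT.mem_cen.2 (Commute.refl t)) fun a ha => Subtype.ext (DT.mem_cen.1 ha).symm)
  have le : ∀ a : S, (a : G) ∈ cen t := by
    have b1 : ∀ a ∈ B, (a : G) ∈ cen t := fun a ha => DT.mem_cen.2 ((J2Aux.cmm hB ha tB).map S.subtype)
    have : ∃ c ∈ (cen t).subgroupOf S, c ∉ B := by
      by_contra n
      push Not at n
      exact k' fun a ha b hb => J2Aux.cmm hB (n a ha) (n b hb)
    obtain ⟨c, hc, n⟩ := this
    intro a
    rcases J2Aux.dec hi n a with e | ⟨b, e, rfl⟩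
    · exact b1 a e
    · exact mul_mem hc (b1 b e)
  rcases h with h | h
  · exact absurd (fun a _ b _ => h.is_comm.comm a b) k'
  by_cases u1 : u = 1
  · exact .inl u1
  refine .inr (congrArg Subtype.val (h ⟨u, hu.1.1⟩ (Subgroup.mem_center_iff.2 fun a => Subtype.ext
    (hu.2.2 a ⟨a.2, le a⟩).symm) ⟨t, ht⟩ (Subgroup.mem_center_iff.2 fun a => Subtype.ext (DT.mem_cen.1 (le a)))
    ?_ ?_))
  · rw [← Subgroup.orderOf_coe]
    exact orderOf_eq_prime (by rw [pow_two]; exact hu.2.1) u1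
  · rw [← Subgroup.orderOf_coe]
    exact ht2

end Cfsg.Agent.RY
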