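import Cfsg.Agent.RY.Defs
import Cfsg.Prelude.Def_StandardType

set_option autoImplicit false
set_option linter.unusedSectionVars false

namespace Cfsg.Agent.RY

open Cfsg.Agent.DT (cm nor cen cj)

universe u
variable {G : Type u} [Group G] [Finite G] {E K : Subgroup G}

namespace L1aAux

open Matrix

variable {F : Type} [Field F]

/-- abbreviations -/
abbrev S2 (F : Type) [Field F] := SpecialLinearGroup (Fin 2) F
abbrev P2 (F : Type) [Field F] := ProjectiveSpecialLinearGroup (Fin 2) F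

theorem smul2 (e a b c d : F) : e • !![a, b; c, d] = !![e * a, e * b; e * c, e * d] := by
  ext i j
  fin_cases i <;> fin_cases j <;> rfl

theorem inj2 {a b c d a' b' c' d' : F} (h : !![a, b; c, d] = !![a', b'; c', d']) :
    a = a' ∧ b = b' ∧ c = c' ∧ d = d' :=
  ⟨congrFun (congrFun h 0) 0, congrFun (congrFun h 0) 1, congrFun (congrFun h 1) 0, congrFun (congrFun h 1) 1⟩

theorem ext2 {a b c d a' b' c' d' : F} (h1 : a = a') (h2 : b = b') (h3 : c = c') (h4 : d = d') :
    !![a, b; c, d] = !![a', b'; c', d'] := by rw [h1, h2, h3, h4]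

theorem cmul (s t : S2 F) : (s * t).1 = s.1 * t.1 := rfl

theorem cone : (1 : S2 F).1 = 1 := rfl

theorem mk_eq {s s' : S2 F} : (QuotientGroup.mk s : P2 F) = QuotientGroup.mk s' ↔
    ∃ e : F, e * e = 1 ∧ s'.1 = e • s.1 := by
  rw [QuotientGroup.eq, Matrix.SpecialLinearGroup.mem_center_iff]
  refine exists_congr fun e => and_congr (by rw [Fintype.card_fin, sq]) ?_
  have k : (scalar (Fin 2) e : Matrix (Fin 2) (Fin 2) F) = e • 1 := by
    rw [scalar_apply, smul_one_eq_diagonal]
  rw [k]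
  constructor
  · intro h
    have := congrArg (s.1 * ·) h
    simp only [Matrix.mul_smul, mul_one] at this
    rw [this, ← cmul, mul_inv_cancel_left]
  · intro h
    rw [cmul, h, Matrix.mul_smul, ← cmul, inv_mul_cancel,
      cone]

theorem data {β : MulAut (P2 F)} (h : IsInnerDiagonalAutPSL β) : ∃ a b c d : F, a * d - b * c ≠ 0 ∧
    (∀ s s' : S2 F, β (QuotientGroup.mk s) = QuotientGroup.mk s' ↔
      ∃ e : F, e * e = 1 ∧ s'.1 * !![a, b; c, d] = e • (!![a, b; c, d] * s.1)) ∧
    (β * β = 1 → ∀ s : S2 F, ∃ e : F, e * e = 1 ∧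
      s.1 * (!![a, b; c, d] * !![a, b; c, d]) = e • (!![a, b; c, d] * !![a, b; c, d] * s.1)) := by
  obtain ⟨g, hg⟩ := h
  have ex : ∀ s : S2 F, ∃ s' : S2 F, s'.1 = g.1 * s.1 * (g⁻¹).1 := fun s =>
    ⟨⟨_, by rw [det_mul, det_mul, s.2, mul_one, ← det_mul, Units.mul_inv, det_one]⟩, rfl⟩
  have k : ∀ s s' : S2 F, β (QuotientGroup.mk s) = QuotientGroup.mk s' ↔
      ∃ e : F, e * e = 1 ∧ s'.1 * g.1 = e • (g.1 * s.1) := fun s s' => by
    obtain ⟨x, hx⟩ := ex s
    rw [hg s x hx, mk_eq, hx]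
    refine exists_congr fun e => and_congr_right fun _ => ⟨fun h => ?_, fun h => ?_⟩
    · rw [h, Matrix.smul_mul, Units.inv_mul_cancel_right]
    · rw [← Matrix.smul_mul, ← h, Units.mul_inv_cancel_right]
  refine ⟨g.1 0 0, g.1 0 1, g.1 1 0, g.1 1 1, ?_, ?_, fun h2 s => ?_⟩
  · rw [← det_fin_two]
    exact (GeneralLinearGroup.det_ne_zero g)
  · rw [← eta_fin_two]
    exact k
  · rw [← eta_fin_two]
    obtain ⟨x, hx⟩ := ex s
    have e1 : β (QuotientGroup.mk x) = QuotientGroup.mk s := by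
      rw [← hg s x hx, ← MulAut.mul_apply, h2, MulAut.one_apply]
    obtain ⟨e, e2, e3⟩ := (k x s).1 e1
    refine ⟨e, e2, ?_⟩
    rw [← mul_assoc, e3, hx, Matrix.smul_mul, mul_assoc, Units.inv_mul_cancel_right, mul_assoc]

theorem eq_one {β : MulAut (P2 F)} {a : F} (k : ∀ s s' : S2 F, β (QuotientGroup.mk s) = QuotientGroup.mk s' ↔
      ∃ e : F, e * e = 1 ∧ s'.1 * !![a, 0; 0, a] = e • (!![a, 0; 0, a] * s.1)) : β = 1 :=
  MulEquiv.ext fun x => QuotientGroup.induction_on x fun s => (k s s).2 ⟨1, one_mul 1, by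
    rw [one_smul, eta_fin_two s.1, mul_fin_two, mul_fin_two]
    exact ext2 (by ring) (by ring) (by ring) (by ring)⟩

/-- the unipotent elements -/
def up (x : F) : S2 F := ⟨!![1, x; 0, 1], by simp [det_fin_two]⟩
def lo (x : F) : S2 F := ⟨!![1, 0; x, 1], by simp [det_fin_two]⟩
/-- the diagonal elements -/
def dg (a b : F) (h : a * b = 1) : S2 F := ⟨!![a, 0; 0, b], by simp [det_fin_two, h]⟩
def ww : S2 F := ⟨!![0, 1; -1, 0], by simp [det_fin_two]⟩

theorem up_pow (n : ℕ) : (up (1 : F) ^ n).1 = !![1, (n : F); 0, 1] := by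
  induction n with
  | zero => rw [pow_zero, Nat.cast_zero, ← one_fin_two]; rfl
  | succ n ih =>
    rw [pow_succ, cmul, ih, up, mul_fin_two]
    exact ext2 (by ring) (by push_cast; ring) (by ring) (by ring)

theorem dg_pow (a b : F) (h : a * b = 1) (n : ℕ) : (dg a b h ^ n).1 = !![a ^ n, 0; 0, b ^ n] := by
  induction n with
  | zero => rw [pow_zero, pow_zero, pow_zero, ← one_fin_two]; rfl
  | succ n ih =>
    rw [pow_succ, cmul, ih, dg, mul_fin_two]
    exact ext2 (by ring) (by ring) (by ring) (by ring)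

theorem odd_of {s : S2 F} {n : ℕ} (hn : Odd n) (h : (s ^ n).1 = !![1, 0; 0, 1]) :
    Odd (orderOf (QuotientGroup.mk s : P2 F)) := by
  refine hn.of_dvd_nat (orderOf_dvd_of_pow_eq_one ?_)
  rw [← QuotientGroup.mk_pow, show s ^ n = 1 from Subtype.ext (h.trans one_fin_two.symm), QuotientGroup.mk_one]

theorem iv_of {s t : S2 F} (h : s.1 * t.1 * s.1 = t.1) :
    Iv (QuotientGroup.mk t : P2 F) (QuotientGroup.mk s) := by
  have e : s * t * s = t := Subtype.ext h
  have : t * s * t⁻¹ = s⁻¹ := by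
    calc _ = s⁻¹ * (s * t * s) * t⁻¹ := by group
      _ = _ := by rw [e]; group
  rw [Iv, ← QuotientGroup.mk_inv, ← QuotientGroup.mk_inv, ← QuotientGroup.mk_mul, ← QuotientGroup.mk_mul, this]

end L1aAux

open L1aAux in
open Matrix in
theorem psl_u {F : Type} [Field F] [Fintype F] (h2 : (2 : F) ≠ 0) (h3 : 3 < Fintype.card F) :
    ∃ u : ProjectiveSpecialLinearGroup (Fin 2) F, u ≠ 1 ∧ Odd (orderOf u) ∧
      (∀ β : MulAut (ProjectiveSpecialLinearGroup (Fin 2) F), IsInnerDiagonalAutPSL β → β * β = 1 → β u = u → β = 1) ∧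
      ((∃ t, Iv t u) ∨ ∃ y t : ProjectiveSpecialLinearGroup (Fin 2) F, y ≠ 1 ∧ Odd (orderOf y) ∧ Iv t y ∧
        ∀ β : MulAut (ProjectiveSpecialLinearGroup (Fin 2) F), IsInnerDiagonalAutPSL β → β * β = 1 → β y = y →
          β = 1 ∨ β u = u⁻¹) := by
  classical
  have hc : Fintype.card F % 2 = 1 := FiniteField.odd_card_of_char_ne_two fun h => h2 (by
    have := ringChar.Nat.cast_ringChar (R := F)
    rw [h] at this
    exact_mod_cast this)
  have z2 : ∀ x : F, 2 * x = 0 → x = 0 := fun x h => (mul_eq_zero.1 h).resolve_left h2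
  refine ⟨QuotientGroup.mk (up 1), fun h => ?_, odd_of (Nat.odd_iff.2 hc) (by
    rw [up_pow, FiniteField.cast_card_eq_zero]), fun β hβ b2 h => ?_, ?_⟩
  · obtain ⟨e, -, h⟩ := mk_eq.1 (h.trans (QuotientGroup.mk_one _).symm)
    rw [cone, one_fin_two, up, smul2] at h
    obtain ⟨h1, h2, -⟩ := inj2 h
    exact one_ne_zero (h1.trans h2.symm)
  · obtain ⟨a, b, c, d, hd, k, k2⟩ := data hβ
    obtain ⟨e, e2, h⟩ := (k _ _).1 h
    rw [up, mul_fin_two, mul_fin_two, smul2] at h
    obtain ⟨h1, h2', h3', h4⟩ := inj2 h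
    rcases mul_self_eq_one_iff.1 e2 with rfl | rfl
    · obtain rfl : c = 0 := by linear_combination h1
      obtain rfl : d = a := by linear_combination h2'
      obtain ⟨e, -, h⟩ := k2 b2 (lo 1)
      rw [lo, mul_fin_two, mul_fin_two, mul_fin_two, smul2] at h
      obtain ⟨k1, -, k3, -⟩ := inj2 h
      have d0 : d ≠ 0 := fun e => hd (by rw [e]; ring)
      obtain rfl : e = 1 := mul_right_cancel₀ (mul_ne_zero d0 d0) (by linear_combination -k3)
      obtain rfl : b = 0 := z2 _ (mul_left_cancel₀ d0 (by linear_combination -k1))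
      exact eq_one k
    · have c0 : c = 0 := z2 _ (by linear_combination h3')
      have a0 : a = 0 := z2 _ (by linear_combination h1 - c0)
      exact absurd (by rw [a0, c0]; ring) hd
  by_cases sq : IsSquare (-1 : F)
  · obtain ⟨i, hi⟩ := sq
    refine .inl ⟨QuotientGroup.mk (dg i (-i) (by linear_combination hi)), iv_of ?_⟩
    rw [up, dg, mul_fin_two, mul_fin_two]
    exact ext2 (by ring) (by ring) (by ring) (by ring)
  have h4 : Fintype.card F % 4 = 3 := by
    by_contra n
    exact sq (FiniteField.isSquare_neg_one_iff.2 n)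
  obtain ⟨x, hx⟩ : ∃ x : F, x ∉ ({0, 1, -1} : Finset F) := by
    by_contra n
    push Not at n
    have := (Finset.card_le_card (s := Finset.univ) fun x _ => n x).trans Finset.card_le_three
    rw [Finset.card_univ] at this
    omega
  simp only [Finset.mem_insert, Finset.mem_singleton, not_or] at hx
  obtain ⟨x0, x1, x2⟩ := hx
  obtain ⟨a, ha⟩ : ∃ a, a = x * x := ⟨_, rfl⟩
  have a0 : a ≠ 0 := ha ▸ mul_ne_zero x0 x0
  have a1 : a * a ≠ 1 := fun h => (mul_self_eq_one_iff.1 h).elim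
    (fun e => (mul_self_eq_one_iff.1 (ha ▸ e)).elim x1 x2) fun e => sq ⟨x, e.symm.trans ha⟩
  have a2 : a * a ≠ -1 := fun h => sq ⟨a, h.symm⟩
  have ap : a ^ (Fintype.card F / 2) = 1 := by
    rw [ha, ← pow_two, ← pow_mul, show 2 * (Fintype.card F / 2) = Fintype.card F - 1 by omega,
      FiniteField.pow_card_sub_one_eq_one x x0]
  obtain ⟨b, ab⟩ : ∃ b, a * b = 1 := ⟨a⁻¹, mul_inv_cancel₀ a0⟩
  have bp : b ^ (Fintype.card F / 2) = 1 := by
    have := congrArg (· ^ (Fintype.card F / 2)) ab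
    simpa only [mul_pow, ap, one_mul, one_pow] using this
  refine .inr ⟨QuotientGroup.mk (dg a b ab), QuotientGroup.mk ww, fun h => ?_,
    odd_of (n := Fintype.card F / 2) (Nat.odd_iff.2 (by omega)) (by rw [dg_pow, ap, bp]), iv_of ?_, fun β hβ b2 h => ?_⟩
  · obtain ⟨e, e2, h⟩ := mk_eq.1 (h.trans (QuotientGroup.mk_one _).symm)
    rw [cone, one_fin_two, dg, smul2] at h
    obtain ⟨h1, -⟩ := inj2 h
    exact a1 (by linear_combination (-(a * e) - 1) * h1 - a * a * e2)
  · rw [ww, dg, mul_fin_two, mul_fin_two]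
    exact ext2 (by ring) (by linear_combination ab) (by linear_combination -ab) (by ring)
  · obtain ⟨p, q, r, s, hd, k, k2⟩ := data hβ
    obtain ⟨e, e2, h⟩ := (k _ _).1 h
    rw [dg, mul_fin_two, mul_fin_two, smul2] at h
    obtain ⟨h1, h2', h3', h4⟩ := inj2 h
    rcases mul_self_eq_one_iff.1 e2 with rfl | rfl
    · obtain rfl : q = 0 := mul_left_cancel₀ (sub_ne_zero.2 a1) (by linear_combination a * h2' + q * ab)
      obtain rfl : r = 0 := mul_left_cancel₀ (sub_ne_zero.2 a1) (by linear_combination -a * h3' + r * ab)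
      obtain ⟨e, -, h⟩ := k2 b2 (up 1)
      rw [up, mul_fin_two, mul_fin_two, mul_fin_two, smul2] at h
      obtain ⟨k1, k3, -⟩ := inj2 h
      have p0 : p ≠ 0 := fun e => hd (by rw [e]; ring)
      obtain rfl : e = 1 := mul_right_cancel₀ (mul_ne_zero p0 p0) (by linear_combination -k1)
      rcases mul_self_eq_mul_self_iff.1 (show s * s = p * p by linear_combination k3) with rfl | rfl
      · exact .inl (eq_one k)
      · have : (up (1 : F))⁻¹ = up (-1) := inv_eq_of_mul_eq_one_right (Subtype.ext (by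
          rw [cmul, cone, up, up, mul_fin_two, one_fin_two]
          exact ext2 (by ring) (by ring) (by ring) (by ring)))
        refine .inr ?_
        rw [← QuotientGroup.mk_inv, this]
        refine (k _ _).2 ⟨1, one_mul 1, ?_⟩
        rw [one_smul, up, up, mul_fin_two, mul_fin_two]
        exact ext2 (by ring) (by ring) (by ring) (by ring)
    · have p0 : p = 0 := z2 _ (mul_left_cancel₀ a0 (by linear_combination h1))
      have q0 : q = 0 := mul_left_cancel₀ (sub_ne_zero.2 a2) (by linear_combination a * h2' - q * ab)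
      exact absurd (by rw [p0, q0]; ring) hd

end Cfsg.Agent.RY
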