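import Cfsg.Agent.RY.Defs
import Cfsg.Agent.S0028

set_option autoImplicit false
set_option linter.unusedSectionVars false

namespace Cfsg.Agent.RY

open Cfsg.Agent.DT (cm nor cen cj)

universe u
variable {G : Type u} [Group G] [Finite G] {E K : Subgroup G}

namespace LiftAux

theorem fix1 {p : ℕ} (hp : p.Prime) (hp2 : p ≠ 2) {R : Subgroup G} {y y' : G}
    (hR : IsPGroup 2 R) (hyp : ∀ t ∈ R, (y ^ p)⁻¹ * t * y' ^ p = t) (hy : y ∈ nor R)
    (h : y⁻¹ * y' ∈ R) : ∃ t ∈ R, y⁻¹ * t * y' = t := by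
  classical
  have := Fact.mk hp
  have := Fintype.ofFinite R
  let f : Function.End R := fun t => ⟨y⁻¹ * t * y', by
    have := mul_mem ((Subgroup.mem_normalizer_iff''.1 hy _).1 t.2) h
    rwa [mul_assoc, mul_inv_cancel_left] at this⟩
  have k : ∀ (n : ℕ) (t : R), ((f ^ n) t : G) = (y ^ n)⁻¹ * t * y' ^ n := fun n => by
    induction n with
    | zero => intro t; simp [Function.End.one_def]
    | succ n ih =>
      intro t
      rw [pow_succ']
      change y⁻¹ * ((f ^ n) t : G) * y' = _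
      rw [ih, pow_succ', pow_succ]
      group
  have m := Equiv.Perm.card_fixedPoints_modEq (f := f) (p := p) (n := 1) (by
    rw [pow_one]
    exact funext fun t => Subtype.ext (by rw [k, hyp _ t.2]; rfl))
  obtain ⟨n, hn⟩ := hR.exists_card_eq
  rw [← Nat.card_eq_fintype_card, hn] at m
  obtain ⟨t, ht⟩ : Nonempty f.fixedPoints := Fintype.card_pos_iff.1 (Nat.pos_of_ne_zero fun e => by
    rw [e] at m
    exact hp2 ((Nat.prime_dvd_prime_iff_eq hp Nat.prime_two).1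
      (hp.dvd_of_dvd_pow ((Nat.modEq_zero_iff_dvd).1 m))))
  exact ⟨t, t.2, congrArg Subtype.val ht⟩

theorem pw {R : Subgroup G} {y y' : G} (hy : y ∈ nor R) (h : y⁻¹ * y' ∈ R) (n : ℕ) :
    (y ^ n)⁻¹ * y' ^ n ∈ R := by
  induction n with
  | zero => simp
  | succ n ih =>
    have := mul_mem ((Subgroup.mem_normalizer_iff''.1 hy _).1 ih) h
    rwa [show y⁻¹ * ((y ^ n)⁻¹ * y' ^ n) * y * (y⁻¹ * y') = (y ^ (n + 1))⁻¹ * y' ^ (n + 1) by
      rw [pow_succ, pow_succ]; group] at this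

theorem fix (o : ℕ) : Odd o → ∀ (R : Subgroup G) (y y' : G), IsPGroup 2 R →
    (∀ t ∈ R, (y ^ o)⁻¹ * t * y' ^ o = t) → y ∈ nor R → y⁻¹ * y' ∈ R → ∃ t ∈ R, y⁻¹ * t * y' = t := by
  induction o using Nat.strong_induction_on with
  | _ o ih =>
  intro ho R y y' hR hyp hy h
  by_cases h1 : o = 1
  · subst h1
    exact ⟨1, R.one_mem, by simpa using hyp 1 R.one_mem⟩
  obtain ⟨p, hp, m, rfl⟩ := Nat.exists_prime_and_dvd h1
  have hp2 : p ≠ 2 := by
    rintro rfl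
    exact (Nat.not_even_iff_odd.2 ho) (even_two_mul m)
  have hm : Odd m := (Nat.odd_mul.1 ho).2
  have hlt : m < p * m := by
    have := hm.pos
    have := hp.two_le
    nlinarith
  obtain ⟨n1, hn1, e1⟩ := fix1 hp hp2 (y := y ^ m) (y' := y' ^ m) hR
    (fun t ht => by rw [← pow_mul, ← pow_mul, mul_comm m p]; exact hyp t ht) (pow_mem hy m) (pw hy h m)
  have ez : (n1 * y' * n1⁻¹) ^ m = y ^ m := by
    rw [conj_pow]
    calc n1 * y' ^ m * n1⁻¹ = y ^ m * ((y ^ m)⁻¹ * n1 * y' ^ m) * n1⁻¹ := by group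
      _ = _ := by rw [e1]; group
  have hyc : y ∈ cen (y ^ m) := DT.mem_cen.2 (Commute.self_pow y m)
  have hzc : n1 * y' * n1⁻¹ ∈ cen (y ^ m) := DT.mem_cen.2 (ez ▸ Commute.self_pow _ m)
  obtain ⟨n2, hn2, e2⟩ := ih m hlt hm (R ⊓ cen (y ^ m)) y (n1 * y' * n1⁻¹) (hR.to_le inf_le_left)
    (fun t ht => by
      rw [ez, mul_assoc, (DT.mem_cen.1 ht.2).eq, inv_mul_cancel_left])
    (DT.nor_inf_le_nor_inf _ _ ⟨hy, Subgroup.le_normalizer hyc⟩)
    ⟨by
      have := mul_mem (mul_mem ((Subgroup.mem_normalizer_iff''.1 hy _).1 hn1) h) (inv_mem hn1)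
      rwa [show y⁻¹ * n1 * y * (y⁻¹ * y') * n1⁻¹ = y⁻¹ * (n1 * y' * n1⁻¹) by group] at this,
     (cen (y ^ m)).mul_mem ((cen (y ^ m)).inv_mem hyc) hzc⟩
  refine ⟨n2 * n1, mul_mem hn2.1 hn1, ?_⟩
  calc y⁻¹ * (n2 * n1) * y' = y⁻¹ * n2 * (n1 * y' * n1⁻¹) * n1 := by group
    _ = _ := by rw [e2]

theorem fixc {N D : Subgroup G} [N.Normal] (hN : Odd (Nat.card N)) (hD : IsPGroup 2 D) {x : G}
    (h : ∀ d ∈ D, Commute (QuotientGroup.mk d : G ⧸ N) (QuotientGroup.mk x)) :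
    ∃ u : G, (QuotientGroup.mk u : G ⧸ N) = QuotientGroup.mk x ∧ ∀ d ∈ D, d * u * d⁻¹ = u := by
  let X := {u : G // (QuotientGroup.mk u : G ⧸ N) = QuotientGroup.mk x}
  let _ : MulAction D X :=
    { smul := fun d u => ⟨d * u * (d : G)⁻¹, by
        rw [QuotientGroup.mk_mul, QuotientGroup.mk_mul, QuotientGroup.mk_inv, u.2, (h d d.2).eq,
          mul_inv_cancel_right]⟩
      one_smul := fun u => Subtype.ext (by
        change ((1 : D) : G) * u * ((1 : D) : G)⁻¹ = u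
        simp)
      mul_smul := fun a b u => Subtype.ext (by
        change ((a * b : D) : G) * u * ((a * b : D) : G)⁻¹ = a * (b * u * (b : G)⁻¹) * (a : G)⁻¹
        rw [Subgroup.coe_mul]; group) }
  have hc : Nat.card X = Nat.card N := by
    refine Nat.card_congr
      { toFun := fun u => ⟨x⁻¹ * u, QuotientGroup.eq.1 u.2.symm⟩
        invFun := fun n => ⟨x * n, (QuotientGroup.eq.2 (by simp)).symm⟩
        left_inv := fun u => Subtype.ext (by simp)
        right_inv := fun n => Subtype.ext (by simp) }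
  obtain ⟨u, hu⟩ := hD.nonempty_fixed_point_of_prime_not_dvd_card X (by
    rw [hc]; exact fun e => (Nat.not_even_iff_odd.2 hN) (even_iff_two_dvd.2 e))
  exact ⟨u, u.2, fun d hd => congrArg Subtype.val (hu ⟨d, hd⟩)⟩

theorem iv_odd {t y : G} (h : Iv t y) (j : ℕ) : Iv (t ^ (2 * j + 1)) y := by
  induction j with
  | zero => simpa using h
  | succ j ih =>
    unfold Iv at *
    calc t ^ (2 * (j + 1) + 1) * y * (t ^ (2 * (j + 1) + 1))⁻¹
        = t * (t * (t ^ (2 * j + 1) * y * (t ^ (2 * j + 1))⁻¹) * t⁻¹) * t⁻¹ := by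
          rw [show 2 * (j + 1) + 1 = (2 * j + 1) + 1 + 1 by ring, pow_succ' t (2 * j + 1 + 1),
            pow_succ' t (2 * j + 1)]
          group
      _ = t * (t * y * t⁻¹)⁻¹ * t⁻¹ := by rw [ih]; group
      _ = y⁻¹ := by rw [h, inv_inv, h]

end LiftAux

theorem lift_odd {N U : Subgroup G} [N.Normal] (hN : Odd (Nat.card N)) (hU : IsPGroup 2 U) {t y : G} {k : ℕ}
    (ht : t ^ 2 ^ k = 1) (htU : t ∈ nor U) (hy : Odd (orderOf (QuotientGroup.mk y : G ⧸ N)))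
    (hc : ∀ s ∈ U, s * y * s⁻¹ * y⁻¹ ∈ N) (hi : t * y * t⁻¹ * y ∈ N) :
    ∃ y' : G, y⁻¹ * y' ∈ N ∧ Odd (orderOf y') ∧ y' ∈ ceS U ∧ Iv t y' := by
  obtain ⟨m, hm⟩ := hy
  have hy : Odd (orderOf (QuotientGroup.mk y : G ⧸ N)) := ⟨m, hm⟩
  set π := QuotientGroup.mk' N with hπ
  have hπa : ∀ a : G, (QuotientGroup.mk a : G ⧸ N) = π a := fun _ => rfl
  have hi' : π t * π y * (π t)⁻¹ = (π y)⁻¹ := by
    have := (QuotientGroup.eq_one_iff _).2 hi
    rw [hπa, map_mul, map_mul, map_mul, map_inv] at this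
    exact eq_inv_of_mul_eq_one_left this
  have hT : IsPGroup 2 (Subgroup.zpowers (t ^ 2)) := by
    rintro ⟨_, j, rfl⟩
    refine ⟨k, Subtype.ext ?_⟩
    change ((t ^ 2) ^ j) ^ 2 ^ k = 1
    rw [← zpow_natCast, ← zpow_mul, mul_comm, zpow_mul, zpow_natCast, ← pow_mul, mul_comm, pow_mul, ht,
      one_pow, one_zpow]
  have hD : IsPGroup 2 (Subgroup.zpowers (t ^ 2) ⊔ U : Subgroup G) :=
    DT.sup_pgroup hT hU (Subgroup.zpowers_le.2 (pow_mem htU 2))
  have hle : (Subgroup.zpowers (t ^ 2) ⊔ U : Subgroup G) ≤ (cen (π y)).comap π := by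
    refine sup_le (Subgroup.zpowers_le.2 ?_) fun s hs => ?_
    · refine DT.mem_cen.2 ?_
      have e : π t * π t * π y * (π t * π t)⁻¹ = π y := by
        calc π t * π t * π y * (π t * π t)⁻¹ = π t * (π t * π y * (π t)⁻¹) * (π t)⁻¹ := by group
          _ = π t * (π y)⁻¹ * (π t)⁻¹ := by rw [hi']
          _ = (π t * π y * (π t)⁻¹)⁻¹ := by group
          _ = π y := by rw [hi', inv_inv]
      rw [map_pow, pow_two]
      exact mul_inv_eq_iff_eq_mul.1 e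
    · refine DT.mem_cen.2 ?_
      have := (QuotientGroup.eq_one_iff _).2 (hc s hs)
      rw [hπa, map_mul, map_mul, map_mul, map_inv, map_inv] at this
      exact commutatorElement_eq_one_iff_commute.1 this
  obtain ⟨u, hu, hf⟩ := LiftAux.fixc hN hD (x := y ^ m) fun d hd => by
    rw [hπa, hπa, map_pow]
    exact (DT.mem_cen.1 (hle hd)).pow_right m
  rw [hπa, hπa, map_pow] at hu
  have hu2 : t ^ 2 * u * (t ^ 2)⁻¹ = u := hf _ (Subgroup.mem_sup_left (Subgroup.mem_zpowers _))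
  have huU : u ∈ ceS U := Subgroup.mem_centralizer_iff.2 fun s hs =>
    mul_inv_eq_iff_eq_mul.1 (hf s (Subgroup.mem_sup_right hs))
  have hq : π (u⁻¹ * (t * u * t⁻¹)) = π y := by
    rw [map_mul, map_mul, map_mul, map_inv, map_inv, hu, ← conj_pow, hi', inv_pow, ← mul_inv_rev, ← pow_add,
      inv_eq_iff_mul_eq_one, ← pow_succ, ← two_mul, ← hm]
    exact pow_orderOf_eq_one _
  refine ⟨u⁻¹ * (t * u * t⁻¹), QuotientGroup.eq.1 hq.symm, ?_, mul_mem (inv_mem huU) ?_, ?_⟩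
  · have h1 : (u⁻¹ * (t * u * t⁻¹)) ^ orderOf (QuotientGroup.mk y : G ⧸ N) ∈ N := by
      rw [← QuotientGroup.eq_one_iff, hπa, map_pow, hq]
      exact pow_orderOf_eq_one _
    have h2 := congrArg Subtype.val (pow_card_eq_one' (G := N) (x := ⟨_, h1⟩))
    rw [Subgroup.coe_pow, Subgroup.coe_one, ← pow_mul] at h2
    exact Odd.of_dvd_nat (hy.mul hN) (orderOf_dvd_of_pow_eq_one h2)
  · refine Subgroup.mem_centralizer_iff.2 fun s hs => ?_
    have := Subgroup.mem_centralizer_iff.1 huU _ ((Subgroup.mem_normalizer_iff''.1 htU s).1 hs)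
    calc s * (t * u * t⁻¹) = t * (t⁻¹ * s * t * u) * t⁻¹ := by group
      _ = _ := by rw [this]; group
  · unfold Iv
    calc t * (u⁻¹ * (t * u * t⁻¹)) * t⁻¹ = t * u⁻¹ * t⁻¹ * (t ^ 2 * u * (t ^ 2)⁻¹) := by
          rw [pow_two]; group
      _ = _ := by rw [hu2]; group

theorem lift_two {N : Subgroup G} [N.Normal] (hN : IsPGroup 2 N) {t y : G}
    (hy : Odd (orderOf (QuotientGroup.mk y : G ⧸ N))) (hi : t * y * t⁻¹ * y ∈ N) :
    ∃ y' t' : G, y⁻¹ * y' ∈ N ∧ t⁻¹ * t' ∈ N ∧ orderOf y' = orderOf (QuotientGroup.mk y : G ⧸ N) ∧ Iv t' y' := by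
  set o := orderOf (QuotientGroup.mk y : G ⧸ N) with ho
  set π := QuotientGroup.mk' N with hπ
  have hπa : ∀ a : G, (QuotientGroup.mk a : G ⧸ N) = π a := fun _ => rfl
  have h1 : y ^ o ∈ N := by
    rw [← QuotientGroup.eq_one_iff, hπa, map_pow]
    exact pow_orderOf_eq_one _
  obtain ⟨k, hk⟩ := hN ⟨_, h1⟩
  have hk' : (y ^ o) ^ 2 ^ k = 1 := congrArg Subtype.val hk
  have hco : Nat.Coprime o (2 ^ k) := Nat.Coprime.pow_right k (Nat.coprime_two_right.2 hy)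
  obtain ⟨e, he1, he2⟩ := Nat.chineseRemainder hco 1 0
  obtain ⟨c, hc⟩ := (Nat.modEq_zero_iff_dvd).1 he2
  have hq : π (y ^ e) = π y := by
    rw [map_pow]
    exact (pow_eq_pow_iff_modEq.2 he1).trans (pow_one _)
  have hpo : (y ^ e) ^ o = 1 := by
    rw [← pow_mul, mul_comm, pow_mul, hc, pow_mul, hk', one_pow]
  have hord : orderOf (y ^ e) = o := by
    refine Nat.dvd_antisymm (orderOf_dvd_of_pow_eq_one hpo) ?_
    have := orderOf_map_dvd π (y ^ e)
    rwa [hq] at this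
  have hi' : π t * π y * (π t)⁻¹ = (π y)⁻¹ := by
    have := (QuotientGroup.eq_one_iff _).2 hi
    rw [hπa, map_mul, map_mul, map_mul, map_inv] at this
    exact eq_inv_of_mul_eq_one_left this
  obtain ⟨n, hn, en⟩ := LiftAux.fix o hy N (y ^ e)⁻¹ (t * y ^ e * t⁻¹) hN
    (fun s _ => by rw [inv_pow, conj_pow, hpo]; simp)
    (by rw [nor, Subgroup.normalizer_eq_top]; trivial)
    (by
      rw [← QuotientGroup.eq_one_iff, hπa, inv_inv, map_mul, map_mul, map_mul, map_inv, hq, hi', mul_inv_cancel])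
  refine ⟨y ^ e, n * t, QuotientGroup.eq.1 hq.symm, ?_, hord, ?_⟩
  · have := (inferInstance : N.Normal).conj_mem n hn t⁻¹
    rwa [inv_inv, mul_assoc] at this
  · unfold Iv
    calc n * t * y ^ e * (n * t)⁻¹ = (y ^ e)⁻¹ * ((y ^ e)⁻¹⁻¹ * n * (t * y ^ e * t⁻¹)) * n⁻¹ := by group
      _ = _ := by rw [en]; group

theorem Iv.two {t y : G} (h : Iv t y) : ∃ m k : ℕ, Odd m ∧ (t ^ m) ^ 2 ^ k = 1 ∧ Iv (t ^ m) y := by
  obtain ⟨k, m, hm, e⟩ := Nat.exists_eq_two_pow_mul_odd (orderOf_pos t).ne'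
  refine ⟨m, k, hm, by rw [← pow_mul, mul_comm, ← e, pow_orderOf_eq_one], ?_⟩
  obtain ⟨j, rfl⟩ := hm
  exact LiftAux.iv_odd h j

theorem pq {Q D : Subgroup G} (hQ : IsPGroup 2 Q) (hD : IsPGroup 2 D) (hDQ : D ≤ nor Q) {y : G} (hy : Odd (orderOf y))
    (hyQ : y ∈ nor Q) (hyD : y ∈ ceS D) (h : ∀ q ∈ Q, q ∈ ceS D → Commute q y) : y ∈ ceS Q := by
  refine S0028.result 2 D (Subgroup.zpowers y) Q hD (by rw [Nat.card_zpowers]; exact Nat.coprime_two_right.2 hy) hQ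
    (Subgroup.le_centralizer_iff.1 (Subgroup.zpowers_le.2 hyD)) hDQ (Subgroup.zpowers_le.2 hyQ) ?_
    (Subgroup.mem_zpowers y)
  intro q hq
  refine Subgroup.mem_centralizer_iff.2 ?_
  rintro _ ⟨j, rfl⟩
  exact ((h q hq.1 hq.2).zpow_right j).eq.symm

end Cfsg.Agent.RY
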