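import Cfsg.Agent.RY.Lift

set_option autoImplicit false
set_option linter.unusedSectionVars false

namespace Cfsg.Agent.RY

open Cfsg.Agent.DT (cm nor cen cj)

universe u
variable {G : Type u} [Group G] [Finite G] {E K : Subgroup G}

namespace R1bAux

theorem triv {N U : Subgroup G} (hN : Odd (Nat.card N)) (hU : IsPGroup 2 U) {g : G} (h1 : g ∈ U) (h2 : g ∈ N) :
    g = 1 := by
  obtain ⟨k, hk⟩ := hU ⟨g, h1⟩
  have hk' : g ^ 2 ^ k = 1 := congrArg Subtype.val hk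
  rw [← orderOf_eq_one_iff]
  exact Nat.eq_one_of_dvd_coprimes ((Nat.coprime_two_left.2 hN).pow_left k) (orderOf_dvd_of_pow_eq_one hk')
    (N.orderOf_dvd_natCard h2)

theorem frat {N U : Subgroup G} [N.Normal] (hN : Odd (Nat.card N)) (hU : IsPGroup 2 U) {c : G ⧸ N}
    (hc : c ∈ nor (U.map (QuotientGroup.mk' N))) : ∃ g ∈ nor U, (QuotientGroup.mk g : G ⧸ N) = c := by
  haveI := Fact.mk Nat.prime_two
  obtain ⟨g, rfl⟩ := QuotientGroup.mk_surjective c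
  let P : Subgroup G := (U.map (QuotientGroup.mk' N)).comap (QuotientGroup.mk' N)
  have hUP : U ≤ P := fun u hu => ⟨u, hu, rfl⟩
  have hdec : ∀ x ∈ P, ∃ u ∈ U, u⁻¹ * x ∈ N := by
    rintro x ⟨u, hu, e⟩
    exact ⟨u, hu, QuotientGroup.eq.1 e⟩
  have hgP : cj g U ≤ P := by
    rintro _ ⟨u, hu, rfl⟩
    exact (DT.mem_nor.1 hc (QuotientGroup.mk u)).1 ⟨u, hu, rfl⟩
  obtain ⟨Q, hQ⟩ := (hU.comap_subtype (K := P)).exists_le_sylow
  obtain ⟨Q', hQ'⟩ := ((hU.map (MulAut.conj g).toMonoidHom).comap_subtype (K := P)).exists_le_sylow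
  have hQU : ∀ q : P, q ∈ (Q : Subgroup P) → (q : G) ∈ U := by
    intro q hq
    obtain ⟨u, hu, hn⟩ := hdec q q.2
    have h1 : u⁻¹ * q ∈ (Q : Subgroup P).map P.subtype :=
      ⟨(⟨u, hUP hu⟩ : P)⁻¹ * q, (Q : Subgroup P).mul_mem ((Q : Subgroup P).inv_mem (hQ hu)) hq, rfl⟩
    have := triv hN (Q.isPGroup'.map P.subtype) h1 hn
    rw [inv_mul_eq_one] at this
    exact this ▸ hu
  obtain ⟨x, hx⟩ := MulAction.exists_smul_eq P Q' Q
  obtain ⟨u, hu, hn⟩ := hdec x x.2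
  have key : ∀ a ∈ U, (x : G) * (g * a * g⁻¹) * (x : G)⁻¹ ∈ U := by
    intro a ha
    have h1 : (⟨g * a * g⁻¹, hgP ⟨a, ha, rfl⟩⟩ : P) ∈ (Q' : Subgroup P) := hQ' ⟨a, ha, rfl⟩
    have h2 : x * (⟨g * a * g⁻¹, hgP ⟨a, ha, rfl⟩⟩ : P) * x⁻¹ ∈ (Q : Subgroup P) := by
      rw [← hx, Sylow.coe_subgroup_smul]
      exact Subgroup.smul_mem_pointwise_smul _ (MulAut.conj x) _ h1
    exact hQU _ h2
  refine ⟨u⁻¹ * x * g, Subgroup.mem_normalizer_fintype fun a ha => ?_, ?_⟩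
  · have : u⁻¹ * x * g * a * (u⁻¹ * x * g)⁻¹ = u⁻¹ * ((x : G) * (g * a * g⁻¹) * (x : G)⁻¹) * u := by group
    rw [this]
    exact U.mul_mem (U.mul_mem (U.inv_mem hu) (key a ha)) hu
  · rw [QuotientGroup.mk_mul, (QuotientGroup.eq_one_iff _).2 hn, one_mul]

theorem iv_pow {H : Type*} [Group H] {t y : H} (h : Iv t y) {m : ℕ} (hm : Odd m) : Iv (t ^ m) y := by
  obtain ⟨j, rfl⟩ := hm
  have h' : t * y * t⁻¹ = y⁻¹ := h
  have h2 : Commute (t ^ 2) y := by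
    have : t * (t * y * t⁻¹) * t⁻¹ = y := by
      rw [h', show t * y⁻¹ * t⁻¹ = (t * y * t⁻¹)⁻¹ by group, h', inv_inv]
    calc t ^ 2 * y = (t * (t * y * t⁻¹) * t⁻¹) * t ^ 2 := by rw [pow_two]; group
      _ = y * t ^ 2 := by rw [this]
  have h3 := (h2.pow_left j).eq
  rw [← pow_mul] at h3
  show t ^ (2 * j + 1) * y * (t ^ (2 * j + 1))⁻¹ = y⁻¹
  calc t ^ (2 * j + 1) * y * (t ^ (2 * j + 1))⁻¹ = t * (t ^ (2 * j) * y) * (t ^ (2 * j))⁻¹ * t⁻¹ := by
        rw [pow_succ']; group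
    _ = t * y * t⁻¹ := by rw [h3]; group
    _ = y⁻¹ := h'

theorem nor_map {H : Type*} [Group H] [Finite H] (f : G →* H) {L : Subgroup G} {c : G} (hc : c ∈ nor L) :
    f c ∈ nor (L.map f) := by
  refine Subgroup.mem_normalizer_fintype ?_
  rintro _ ⟨a, ha, rfl⟩
  exact ⟨c * a * c⁻¹, (DT.mem_nor.1 hc a).1 ha, by simp⟩

end R1bAux

theorem good_quot {N U : Subgroup G} [N.Normal] (hN : Odd (Nat.card N)) (hU : IsPGroup 2 U) (h : Good U) :
    Good (U.map (QuotientGroup.mk' N)) := by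
  intro y hy hyo t ht hi
  obtain ⟨y0, rfl⟩ := QuotientGroup.mk_surjective y
  obtain ⟨t1, ht1, rfl⟩ := R1bAux.frat hN hU ht
  obtain ⟨m, k, hm, hk, -⟩ := Iv.two (t := t1) (y := 1) (by simp [Iv])
  have hi' : Iv (QuotientGroup.mk (t1 ^ m) : G ⧸ N) (QuotientGroup.mk y0) := by
    rw [QuotientGroup.mk_pow]
    exact R1bAux.iv_pow hi hm
  have htm : t1 ^ m ∈ nor U := (nor U).pow_mem ht1 m
  obtain ⟨y', hn, hy'o, hy'c, hy'i⟩ := lift_odd (y := y0) hN hU hk htm hyo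
    (fun s hs => by
      rw [← QuotientGroup.eq_one_iff]
      have := Subgroup.mem_centralizer_iff.1 hy (QuotientGroup.mk s) ⟨s, hs, rfl⟩
      simp only [QuotientGroup.mk_mul, QuotientGroup.mk_inv]
      rw [this]; group)
    (by
      rw [← QuotientGroup.eq_one_iff]
      have : (QuotientGroup.mk (t1 ^ m) : G ⧸ N) * QuotientGroup.mk y0 * (QuotientGroup.mk (t1 ^ m))⁻¹ =
        (QuotientGroup.mk y0)⁻¹ := hi'
      simp only [QuotientGroup.mk_mul, QuotientGroup.mk_inv]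
      rw [this]; group)
  obtain ⟨L, hL1, hL2, hL3, hL4⟩ := h y' hy'c hy'o _ htm hy'i
  refine ⟨L.map (QuotientGroup.mk' N), ?_, ?_, hL3.of_dvd_nat (Subgroup.card_map_dvd _ _),
    ⟨y', hL4, (QuotientGroup.eq.2 hn).symm⟩⟩
  · rintro _ ⟨a, ha, rfl⟩
    rw [Subgroup.mem_centralizer_iff]
    rintro _ ⟨s, hs, rfl⟩
    rw [← map_mul, ← map_mul, Subgroup.mem_centralizer_iff.1 (hL1 ha) s hs]
  · intro c hc
    obtain ⟨g, hg, rfl⟩ := R1bAux.frat hN hU (Subgroup.centralizer_le_normalizer _ hc)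
    refine R1bAux.nor_map (QuotientGroup.mk' N) (hL2 (Subgroup.mem_centralizer_iff.2 fun s hs => ?_))
    have h1 : g * s * g⁻¹ * s⁻¹ ∈ U := U.mul_mem ((DT.mem_nor.1 hg s).1 hs) (U.inv_mem hs)
    have h2 : g * s * g⁻¹ * s⁻¹ ∈ N := by
      rw [← QuotientGroup.eq_one_iff]
      have := Subgroup.mem_centralizer_iff.1 hc (QuotientGroup.mk s) ⟨s, hs, rfl⟩
      simp only [QuotientGroup.mk_mul, QuotientGroup.mk_inv]
      rw [← this]; group
    have h3 := R1bAux.triv hN hU h1 h2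
    calc s * g = (g * s * g⁻¹ * s⁻¹) * (s * g) := by rw [h3, one_mul]
      _ = g * s := by group

theorem good_sub {H U : Subgroup G} (hU : U ≤ H) (hc : ceS U ≤ H) (h : Good U) : Good (U.subgroupOf H) := by
  have hce : ∀ y : H, y ∈ ceS (U.subgroupOf H) ↔ (y : G) ∈ ceS U := by
    intro y
    rw [Subgroup.mem_centralizer_iff, Subgroup.mem_centralizer_iff]
    exact ⟨fun hy s hs => congrArg Subtype.val (hy ⟨s, hU hs⟩ hs), fun hy s hs => Subtype.ext (hy s hs)⟩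
  intro y hy hyo t ht hi
  have ht' : (t : G) ∈ nor U :=
    Subgroup.mem_normalizer_fintype fun a ha => (DT.mem_nor.1 ht ⟨a, hU ha⟩).1 ha
  obtain ⟨L, hL1, hL2, hL3, hL4⟩ := h y ((hce y).1 hy) (by rwa [Subgroup.orderOf_coe]) t ht'
    (congrArg Subtype.val hi)
  refine ⟨L.subgroupOf H, fun a ha => (hce a).2 (hL1 ha), fun c hc' => ?_, ?_, hL4⟩
  · exact Subgroup.mem_normalizer_fintype fun a ha => (DT.mem_nor.1 (hL2 ((hce c).1 hc')) a).1 ha
  · rwa [Nat.card_congr (Subgroup.subgroupOfEquivOfLe (hL1.trans hc)).toEquiv]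

theorem exists_lift {N : Subgroup G} [N.Normal] (hN : Odd (Nat.card N)) [E.Normal] (hE : IsPGroup 2 E)
    {V : Subgroup (G ⧸ N)} (hV : IsPGroup 2 V) (hle : E.map (QuotientGroup.mk' N) < V) :
    ∃ U : Subgroup G, IsPGroup 2 U ∧ E < U ∧ U.map (QuotientGroup.mk' N) = V := by
  haveI := Fact.mk Nat.prime_two
  let P : Subgroup G := V.comap (QuotientGroup.mk' N)
  have hEP : E ≤ P := fun e he => hle.le ⟨e, he, rfl⟩
  obtain ⟨Q, hQ⟩ := (hE.comap_subtype (K := P)).exists_le_sylow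
  have hf := MonoidHom.subgroupComap_surjective_of_surjective (QuotientGroup.mk' N) V (QuotientGroup.mk'_surjective N)
  have htop : (⊤ : Subgroup V) = (Q.mapSurjective hf : Subgroup V) :=
    (Q.mapSurjective hf).is_maximal' (hV.to_subgroup ⊤) le_top
  have hmap : ((Q : Subgroup P).map P.subtype).map (QuotientGroup.mk' N) = V := by
    apply le_antisymm
    · rintro _ ⟨_, ⟨q, -, rfl⟩, rfl⟩
      exact q.2
    · intro v hv
      have : (⟨v, hv⟩ : V) ∈ (Q.mapSurjective hf : Subgroup V) := htop ▸ Subgroup.mem_top _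
      obtain ⟨q, hq, e⟩ := this
      exact ⟨q, ⟨q, hq, rfl⟩, congrArg Subtype.val e⟩
  refine ⟨(Q : Subgroup P).map P.subtype, Q.isPGroup'.map _, lt_of_le_of_ne (fun e he => ⟨⟨e, hEP he⟩, hQ he, rfl⟩)
    fun e => hle.ne ?_, hmap⟩
  rw [← hmap, ← e]

end Cfsg.Agent.RY
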