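import Cfsg.Agent.RY.R1a
import Cfsg.Agent.RY.R1b

set_option autoImplicit false
set_option linter.unusedSectionVars false

namespace Cfsg.Agent.RY

open Cfsg.Agent.DT (cm nor cen cj)

universe u
variable {G : Type u} [Group G] [Finite G] {E K : Subgroup G}

namespace R1Aux

theorem exN (H : Type u) [Group H] [Finite H] : ∃ N : Subgroup H, ∃ _ : N.Normal, Odd (Nat.card N) ∧
    ∀ M : Subgroup (H ⧸ N), M.Normal → Odd (Nat.card M) → M = ⊥ := by
  obtain ⟨N, ⟨hn, ho⟩, hm⟩ := Set.exists_max_image {N : Subgroup H | N.Normal ∧ Odd (Nat.card N)} (fun N => Nat.card N)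
    (Set.toFinite _) ⟨⊥, inferInstance, by simp⟩
  refine ⟨N, hn, ho, fun M hM hMo => ?_⟩
  have e : Nat.card (M.comap (QuotientGroup.mk' N)) = Nat.card N * Nat.card M :=
    QuotientGroup.card_preimage_mk N (M : Set (H ⧸ N))
  have h1 := hm (M.comap (QuotientGroup.mk' N)) ⟨inferInstance, by rw [e]; exact ho.mul hMo⟩
  simp only [e] at h1
  have h2 : 0 < Nat.card N := Nat.card_pos
  have h3 : 0 < Nat.card M := Nat.card_pos
  exact Subgroup.card_eq_one.1 (by nlinarith)

theorem one_of {N D : Subgroup G} (hN : Odd (Nat.card N)) (hD : IsPGroup 2 D) {x : G} (h1 : x ∈ N) (h2 : x ∈ D) : x = 1 := by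
  obtain ⟨n, hn⟩ := hD.exists_card_eq
  have : N ⊓ D = ⊥ := Subgroup.inf_eq_bot_of_coprime (by rw [hn]; exact (Nat.coprime_two_right.2 hN).pow_right n)
  exact Subgroup.mem_bot.1 (this ▸ (⟨h1, h2⟩ : x ∈ N ⊓ D))

theorem iv_pow {t y : G} (h : Iv t y) {m : ℕ} (hm : Odd m) : Iv (t ^ m) y := by
  obtain ⟨j, rfl⟩ := hm
  induction j with
  | zero => simpa using h
  | succ j ih =>
    unfold Iv at *
    have h' : t * y⁻¹ * t⁻¹ = y := by
      have := congrArg (·⁻¹) h
      simpa [mul_assoc] using this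
    calc t ^ (2 * (j + 1) + 1) * y * (t ^ (2 * (j + 1) + 1))⁻¹
        = t * (t * (t ^ (2 * j + 1) * y * (t ^ (2 * j + 1))⁻¹) * t⁻¹) * t⁻¹ := by group
      _ = y⁻¹ := by rw [ih, h', h]

theorem ce_map {H : Type u} [Group H] (f : G →* H) {D : Subgroup G} {y : G} (h : y ∈ ceS D) : f y ∈ ceS (D.map f) := by
  rintro _ ⟨d, hd, rfl⟩
  rw [← map_mul, ← map_mul, h d hd]

end R1Aux

open R1Aux in
theorem red1 {a : ℕ} (h : Hyp G a) (hb : ¬ Good (⊥ : Subgroup G)) :
    ∃ (H : Type u) (_ : Group H) (_ : Finite H) (E : Subgroup H), Loc E ∧ (Alpha E ∨ Beta E) := by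
  obtain ⟨E, ⟨hE, hbad⟩, hmax⟩ := Set.exists_max_image {U : Subgroup G | IsPGroup 2 U ∧ ¬ Good U} (fun U => Nat.card U)
    (Set.toFinite _) ⟨⊥, IsPGroup.of_bot, hb⟩
  have hgood : ∀ U : Subgroup G, IsPGroup 2 U → E < U → Good U := fun U hU hlt => by
    by_contra hn
    exact hlt.ne (Subgroup.eq_of_le_of_card_ge hlt.le (hmax U ⟨hU, hn⟩))
  obtain ⟨N, hNn, hN, hNm⟩ := exN (nor E)
  have hEH : E ≤ nor E := Subgroup.le_normalizer
  have hCH : ceS E ≤ nor E := Subgroup.centralizer_le_normalizer _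
  have hE' : IsPGroup 2 (E.subgroupOf (nor E)) := hE.comap_subtype
  have nE' : (E.subgroupOf (nor E)).Normal := Subgroup.normal_in_normalizer
  refine ⟨nor E ⧸ N, inferInstance, inferInstance, (E.subgroupOf (nor E)).map (QuotientGroup.mk' N),
    ⟨nE'.map _ (QuotientGroup.mk'_surjective N), hE'.map _, hNm, fun V hV hlt => ?_, ?_⟩, ?_⟩
  · obtain ⟨U, hU, hEU, rfl⟩ := exists_lift hN hE' hV hlt
    have e : (U.map (nor E).subtype).subgroupOf (nor E) = U :=
      Subgroup.comap_map_eq_self_of_injective (nor E).subtype_injective U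
    have lt : E < U.map (nor E).subtype := by
      refine lt_of_le_of_ne (fun x hx => ⟨⟨x, hEH hx⟩, hEU.le hx, rfl⟩) fun k => hEU.ne ?_
      rw [← e, ← k]
    have := good_sub (Subgroup.map_subtype_le U) ((Subgroup.centralizer_le lt.le).trans hCH) (hgood _ (hU.map _) lt)
    rw [e] at this
    exact good_quot hN hU this
  · unfold Good at hbad
    push Not at hbad
    obtain ⟨y, hy, ho, t, ht, hi, hn⟩ := hbad
    refine ⟨QuotientGroup.mk' N ⟨y, hCH hy⟩, ce_map _ fun e he => Subtype.ext (hy e he), fun k => hn ?_, ?_,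
      QuotientGroup.mk' N ⟨t, ht⟩, ?_⟩
    · refine ⟨N.map (nor E).subtype, ?_, hCH.trans ?_, ?_, ⟨y, hCH hy⟩, (QuotientGroup.eq_one_iff _).1 k, rfl⟩
      · rintro _ ⟨n, hn, rfl⟩ e he
        have := one_of hN hE' (x := (⟨e, hEH he⟩ : nor E) * n * (⟨e, hEH he⟩ : nor E)⁻¹ * n⁻¹)
          (N.mul_mem (hNn.conj_mem n hn _) (N.inv_mem hn)) (by
            have := nE'.conj_mem (⟨e, hEH he⟩ : nor E)⁻¹ (Subgroup.inv_mem _ he) n
            have := Subgroup.mul_mem _ (show (⟨e, hEH he⟩ : nor E) ∈ E.subgroupOf (nor E) from he) this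
            simpa only [mul_assoc] using this)
        rw [mul_inv_eq_one, mul_inv_eq_iff_eq_mul] at this
        exact congrArg Subtype.val this
      · have := Subgroup.le_normalizer_map (H := N) (nor E).subtype
        rwa [Subgroup.normalizer_eq_top, ← MonoidHom.range_eq_map, Subgroup.range_subtype] at this
      · rwa [Subgroup.card_map_of_injective (nor E).subtype_injective]
    · exact Odd.of_dvd_nat (by rwa [Subgroup.orderOf_mk]) (orderOf_map_dvd _ _)
    · unfold Iv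
      rw [← map_inv, ← map_inv, ← map_mul, ← map_mul]
      exact congrArg _ (Subtype.ext hi)
  · refine or_iff_not_imp_left.2 fun hA => beta_quot hN hE' (beta_sub hEH ?_)
    unfold Alpha at hA
    push Not at hA
    obtain ⟨yb, hy, y1, ho, tb, hi, hD⟩ := hA
    obtain ⟨y, rfl⟩ := QuotientGroup.mk'_surjective N yb
    obtain ⟨t, rfl⟩ := QuotientGroup.mk'_surjective N tb
    obtain ⟨m, k, hm, ht, -⟩ := Iv.two (t := t) (y := 1) (by simp [Iv])
    have hi' := iv_pow hi hm
    obtain ⟨y', e, ho', hc', hv⟩ := lift_odd (U := E.subgroupOf (nor E)) (y := y) hN hE' ht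
      (DT.mem_nor.2 fun x => ⟨fun hx => nE'.conj_mem _ hx _, fun hx => by simpa [mul_assoc] using nE'.conj_mem _ hx (t ^ m)⁻¹⟩) ho (fun s hs => by
        rw [← QuotientGroup.eq_one_iff, ← QuotientGroup.mk'_apply, map_mul, map_mul, map_mul, map_inv, map_inv,
          hy _ ⟨s, hs, rfl⟩]
        group) (by
        rw [← QuotientGroup.eq_one_iff, ← QuotientGroup.mk'_apply, map_mul, map_mul, map_mul, map_inv, map_pow, hi',
          inv_mul_cancel])
    have e' : QuotientGroup.mk' N y = QuotientGroup.mk' N y' := QuotientGroup.eq.2 e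
    refine real_mem h hE (y := (y' : G)) (t := ((t ^ m : nor E) : G))
      (fun x hx => congrArg Subtype.val (hc' ⟨x, hEH hx⟩ hx)) (fun k => y1 ?_) (by rwa [Subgroup.orderOf_coe])
      (congrArg Subtype.val hv) fun D h2 hle hc => ?_
    · rw [e', show y' = 1 from Subtype.ext k, map_one]
    by_contra hne
    obtain ⟨g, gD, gn, gE⟩ := DT.nor_grow Nat.prime_two h2 hle (Ne.symm hne)
    have h2' : IsPGroup 2 (D.subgroupOf (nor E)) := h2.comap_subtype
    refine hD ((D.subgroupOf (nor E)).map (QuotientGroup.mk' N)) (h2'.map _)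
      (lt_of_le_of_ne (Subgroup.map_mono fun x hx => hle hx) fun k => gE ?_)
      (by rw [e']; exact ce_map _ fun x hx => Subtype.ext (hc x hx))
    have : QuotientGroup.mk' N ⟨g, gn⟩ ∈ (E.subgroupOf (nor E)).map (QuotientGroup.mk' N) := k ▸ ⟨⟨g, gn⟩, gD, rfl⟩
    obtain ⟨x, hx, ex⟩ := this
    have := one_of hN h2' (QuotientGroup.eq.1 ex) (Subgroup.mul_mem _ (Subgroup.inv_mem _ (hle hx)) gD)
    rw [inv_mul_eq_one] at this
    rw [this] at hx
    exact hx

end Cfsg.Agent.RY
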