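import Cfsg.Agent.RY.Lift

set_option autoImplicit false
set_option linter.unusedSectionVars false

namespace Cfsg.Agent.RY

open Cfsg.Agent.DT (cm nor cen cj)

universe u
variable {G : Type u} [Group G] [Finite G] {E K : Subgroup G}

namespace R1aAux

open Subgroup

theorem fact_add (H : Subgroup G) :
    (Nat.card H).factorization 2 + H.index.factorization 2 = (Nat.card G).factorization 2 := by
  rw [← H.card_mul_index, Nat.factorization_mul Nat.card_pos.ne' index_ne_zero_of_finite]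
  rfl

theorem syl {H : Subgroup G} (hE : IsPGroup 2 E) (h : E ≤ H) :
    ∃ D : Subgroup G, IsPGroup 2 D ∧ E ≤ D ∧ D ≤ H ∧ Nat.card D = 2 ^ (Nat.card H).factorization 2 := by
  obtain ⟨P, hP⟩ := (hE.comap_subtype (K := H)).exists_le_sylow
  refine ⟨(P : Subgroup H).map H.subtype, P.isPGroup'.map _, fun e he => ⟨⟨e, h he⟩, hP he, rfl⟩, map_subtype_le _, ?_⟩
  rw [card_map_of_injective H.subtype_injective, P.card_eq_multiplicity]

theorem card_le {D H : Subgroup G} (hD : IsPGroup 2 D) (h : D ≤ H) : Nat.card D ≤ 2 ^ (Nat.card H).factorization 2 := by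
  obtain ⟨D', -, h1, -, h2⟩ := syl hD h
  exact h2 ▸ card_le_of_le h1

theorem lift {N : Subgroup G} [N.Normal] {V : Subgroup (G ⧸ N)} (hV : IsPGroup 2 V) (hE : IsPGroup 2 E)
    (h : E ≤ V.comap (QuotientGroup.mk' N)) :
    ∃ P : Subgroup G, IsPGroup 2 P ∧ E ≤ P ∧ ∀ v ∈ V, ∃ p ∈ P, QuotientGroup.mk' N p = v := by
  obtain ⟨P, hP⟩ := (hE.comap_subtype (K := V.comap (QuotientGroup.mk' N))).exists_le_sylow
  have hf := MonoidHom.subgroupComap_surjective_of_surjective (QuotientGroup.mk' N) V (QuotientGroup.mk'_surjective N)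
  have ht : (⊤ : Subgroup V) = P.mapSurjective hf := (P.mapSurjective hf).is_maximal' (hV.to_subgroup ⊤) le_top
  refine ⟨(P : Subgroup _).map (Subgroup.subtype _), P.isPGroup'.map _, fun e he => ⟨⟨e, h he⟩, hP he, rfl⟩,
    fun v hv => ?_⟩
  have : (⟨v, hv⟩ : V) ∈ (P.mapSurjective hf : Subgroup V) := ht ▸ mem_top _
  obtain ⟨p, hp, e⟩ := this
  exact ⟨p, ⟨p, hp, rfl⟩, congrArg Subtype.val e⟩

theorem inj {N P : Subgroup G} [N.Normal] (hN : Odd (Nat.card N)) (hP : IsPGroup 2 P) {a b : G} (ha : a ∈ P)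
    (hb : b ∈ P) (h : QuotientGroup.mk' N a = QuotientGroup.mk' N b) : a = b := by
  have h1 : a⁻¹ * b ∈ N := QuotientGroup.eq.1 h
  obtain ⟨k, hk⟩ := hP ⟨_, mul_mem (inv_mem ha) hb⟩
  have h2 : orderOf (a⁻¹ * b) ∣ 2 ^ k := orderOf_dvd_of_pow_eq_one (congrArg Subtype.val hk)
  have h3 : orderOf (a⁻¹ * b) ∣ Nat.card N := N.orderOf_dvd_natCard h1
  have h4 : (2 ^ k).Coprime (Nat.card N) := (Nat.coprime_two_left.2 hN).pow_left k
  exact inv_mul_eq_one.1 (orderOf_eq_one_iff.1 (Nat.eq_one_of_dvd_coprimes h4 h2 h3))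

end R1aAux

open Subgroup R1aAux

theorem real_mem {a : ℕ} (h : Hyp G a) (hE : IsPGroup 2 E) {y t : G} (hy : y ∈ ceS E) (hy1 : y ≠ 1)
    (ho : Odd (orderOf y)) (ht : Iv t y) (hm : ∀ D : Subgroup G, IsPGroup 2 D → E ≤ D → y ∈ ceS D → D = E) :
    Beta E := by
  intro U hU x hx u hu hxE hux
  have hz : IsPGroup 2 (zpowers x) := hU.to_le (zpowers_le.2 hx)
  have hD : IsPGroup 2 (E ⊔ zpowers x : Subgroup G) :=
    hE.to_sup_of_normal_left' hz (zpowers_le.2 (centralizer_le_normalizer _ hxE))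
  suffices E ⊔ zpowers x = E from this ▸ mem_sup_right (mem_zpowers x)
  by_cases hc : x ∈ center G
  · refine hm _ hD le_sup_left ?_
    have : E ⊔ zpowers x ≤ centralizer ({y} : Set G) := sup_le (fun e he => mem_centralizer_singleton_iff.2 (hy e he))
      (zpowers_le.2 (mem_centralizer_singleton_iff.2 (mem_center_iff.1 hc y).symm))
    exact fun d hd => mem_centralizer_singleton_iff.1 (this hd)
  · have hyc : y ∉ center G := fun k => by
      have e : y = y⁻¹ := by rw [← show t * y * t⁻¹ = y⁻¹ from ht, mem_center_iff.1 k t, mul_inv_cancel_right]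
      have h2 : orderOf y ∣ 2 := orderOf_dvd_of_pow_eq_one (by rw [sq]; exact mul_eq_one_iff_eq_inv.2 e)
      exact hy1 (orderOf_eq_one_iff.1 (Nat.eq_one_of_dvd_coprimes (Nat.coprime_two_left.2 ho) h2 dvd_rfl))
    have e1 := h x (isConj_iff.2 ⟨u, hux⟩) hc
    have e2 := h y (isConj_iff.2 ⟨t, ht⟩) hyc
    have e3 := fact_add (centralizer ({x} : Set G))
    have e4 := fact_add (centralizer ({y} : Set G))
    obtain ⟨D, d1, d2, d3, d4⟩ := syl (H := centralizer ({y} : Set G)) hE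
      fun e he => mem_centralizer_singleton_iff.2 (hy e he)
    obtain rfl := hm D d1 d2 fun d hd => mem_centralizer_singleton_iff.1 (d3 hd)
    have h5 := card_le (H := centralizer ({x} : Set G)) hD
      (sup_le (fun e he => mem_centralizer_singleton_iff.2 (hxE e he))
        (zpowers_le.2 (mem_centralizer_singleton_iff.2 rfl)))
    refine (eq_of_le_of_card_ge le_sup_left ?_).symm
    rw [d4, show (Nat.card (centralizer ({y} : Set G))).factorization 2 =
      (Nat.card (centralizer ({x} : Set G))).factorization 2 by omega]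
    exact h5

theorem beta_quot {N : Subgroup G} [N.Normal] (hN : Odd (Nat.card N)) (hE : IsPGroup 2 E) [E.Normal] (h : Beta E) :
    Beta (E.map (QuotientGroup.mk' N)) := by
  intro U hU x hx u hu hxE hux
  have : (E.map (QuotientGroup.mk' N)).Normal := Normal.map inferInstance _ (QuotientGroup.mk'_surjective N)
  obtain ⟨P, hP, h1, h2⟩ := lift (hU.to_sup_of_normal_right (hE.map (QuotientGroup.mk' N))) hE
    fun e he => mem_sup_right ⟨e, he, rfl⟩
  obtain ⟨x, hx', rfl⟩ := h2 x (mem_sup_left hx)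
  obtain ⟨u, hu', rfl⟩ := h2 u (mem_sup_left hu)
  refine ⟨x, h P hP x hx' u hu' (fun e he => inj hN hP (mul_mem (h1 he) hx') (mul_mem hx' (h1 he)) ?_)
    (inj hN hP (mul_mem (mul_mem hu' hx') (inv_mem hu')) (inv_mem hx') ?_), rfl⟩
  · rw [map_mul, map_mul]
    exact hxE _ ⟨e, he, rfl⟩
  · rw [map_mul, map_mul, map_inv, map_inv]
    exact hux

theorem beta_sub {H : Subgroup G} (hE : E ≤ H) (h : Beta E) : Beta (E.subgroupOf H) := by
  intro U hU x hx u hu hxE hux
  exact h (U.map H.subtype) (hU.map _) x ⟨x, hx, rfl⟩ u ⟨u, hu, rfl⟩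
    (fun e he => congrArg Subtype.val (hxE ⟨e, hE he⟩ he)) (congrArg Subtype.val hux)

end Cfsg.Agent.RY
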