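import Cfsg.Agent.RY.Lift
import Cfsg.Agent.H42.ZStar
import Cfsg.Agent.H44.Cores

set_option autoImplicit false
set_option linter.unusedSectionVars false

namespace Cfsg.Agent.RY

open Cfsg.Agent.DT (cm nor cen cj)

universe u
variable {G : Type u} [Group G] [Finite G] {E K : Subgroup G}

namespace R2Aux

variable {H : Type*} [Group H] [Finite H] {Z : Subgroup H}

theorem zp {d : H} {k : ℕ} (h : d ^ 2 ^ k = 1) : IsPGroup 2 (Subgroup.zpowers d) := by
  rintro ⟨_, i, rfl⟩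
  refine ⟨k, Subtype.ext ?_⟩
  simp only [SubmonoidClass.coe_pow, OneMemClass.coe_one]
  rw [← zpow_natCast, ← zpow_mul, mul_comm, zpow_mul, zpow_natCast, h, one_zpow]

theorem two_odd (h2 : IsPGroup 2 Z) {c : H} (hc : c ∈ Z) {o : ℕ} (ho : Odd o) (e : c ^ o = 1) : c = 1 := by
  obtain ⟨k, hk⟩ := h2 ⟨c, hc⟩
  have e' : c ^ 2 ^ k = 1 := by simpa using congrArg Subtype.val hk
  exact orderOf_eq_one_iff.1 (Nat.eq_one_of_dvd_coprimes ((Nat.coprime_two_right.2 ho).pow_right k)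
    (orderOf_dvd_of_pow_eq_one e) (orderOf_dvd_of_pow_eq_one e'))

theorem odd_of (hodd : ∀ N : Subgroup H, N.Normal → Odd (Nat.card N) → N = ⊥) (M : Subgroup H) [M.Normal]
    (N : Subgroup M) (hN : N.Normal) (ho : Odd (Nat.card N)) : N = ⊥ := by
  have e := hodd _ (H44.pPrimeCoreOf_normal (p := 2) M) (Nat.coprime_two_right.1 (H44.pPrimeCoreOf_coprime M))
  rw [Subgroup.map_eq_bot_iff_of_injective _ M.subtype_injective] at e
  exact le_bot_iff.1 (e ▸ H44.le_pPrimeCore hN (Nat.coprime_two_right.2 ho))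

theorem quot [Z.Normal] (hZ : Z ≤ Subgroup.center H) (h2 : IsPGroup 2 Z)
    (hodd : ∀ N : Subgroup H, N.Normal → Odd (Nat.card N) → N = ⊥) (N : Subgroup (H ⧸ Z)) (hN : N.Normal)
    (ho : Odd (Nat.card N)) : N = ⊥ := by
  haveI : Fact (Nat.Prime 2) := ⟨Nat.prime_two⟩
  let M := N.comap (QuotientGroup.mk' Z)
  have ix : (Z.subgroupOf M).index = Nat.card N := by
    have := Subgroup.relIndex_ker M (QuotientGroup.mk' Z)
    rwa [QuotientGroup.ker_mk', Subgroup.map_comap_eq_self_of_surjective (QuotientGroup.mk'_surjective Z)] at this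
  obtain ⟨k, hk⟩ := IsPGroup.iff_card.1 (h2.comap_subtype (K := M))
  obtain ⟨O, hO⟩ := Subgroup.exists_right_complement'_of_coprime (N := Z.subgroupOf M)
    (by rw [ix]; exact hk ▸ (Nat.coprime_two_left.2 ho).pow_left k)
  have nO : O.Normal := ⟨fun n hn g => by
    obtain ⟨⟨z, o⟩, rfl⟩ := hO.2 g
    have c : ∀ a : M, a * z = z * a := fun a => Subtype.ext (Subgroup.mem_center_iff.1 (hZ z.2) a)
    have : (z : M) * o * n * ((z : M) * o)⁻¹ = z * (o * n * (o : M)⁻¹) * (z : M)⁻¹ := by group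
    rw [this, ← c, mul_inv_cancel_right]
    exact mul_mem (mul_mem o.2 hn) (inv_mem o.2)⟩
  have cO : Nat.card O = Nat.card N := hO.symm.index_eq_card.symm.trans ix
  have := odd_of hodd M O nO (cO ▸ ho)
  rw [this, Subgroup.card_bot] at cO
  exact Subgroup.card_eq_one.1 cO.symm

theorem key [Z.Normal] (hZ : Z ≤ Subgroup.center H) (h2 : IsPGroup 2 Z)
    (hodd : ∀ N : Subgroup H, N.Normal → Odd (Nat.card N) → N = ⊥)
    (hb : ∀ U : Subgroup H, IsPGroup 2 U → ∀ x ∈ U, ∀ u ∈ U, u * x * u⁻¹ = x⁻¹ → x ∈ Z) {y : H} (hy : y ≠ 1)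
    (ho : Odd (orderOf y)) : ∃ u, u ∉ Z ∧ u * u ∈ Z ∧ Commute u y := by
  haveI : Fact (Nat.Prime 2) := ⟨Nat.prime_two⟩
  let φ := QuotientGroup.mk' Z
  have k1 : ∀ a, φ a = 1 ↔ a ∈ Z := fun a => QuotientGroup.eq_one_iff a
  have ev : 2 ∣ Nat.card (H ⧸ Z) := by
    by_contra hn
    have := quot hZ h2 hodd ⊤ inferInstance (by rw [Subgroup.card_top]; exact Nat.two_dvd_ne_zero.1 hn |> Nat.odd_iff.2)
    exact hy (two_odd h2 ((k1 y).1 (Subgroup.mem_bot.1 (this ▸ Subgroup.mem_top _))) ho (pow_orderOf_eq_one y))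
  obtain ⟨w, hw⟩ := exists_prime_orderOf_dvd_card' 2 ev
  obtain ⟨u, rfl⟩ := QuotientGroup.mk'_surjective Z w
  have w2 : φ u ^ 2 ^ 1 = 1 := by rw [pow_one, ← hw, pow_orderOf_eq_one]
  have u2 : u * u ∈ Z := (k1 _).1 (by rw [map_mul, ← sq]; simpa using w2)
  obtain ⟨N, n1, n2, n3⟩ := H42.zstar (z := φ u) ⟨hw, fun g c => by
    obtain ⟨g, rfl⟩ := QuotientGroup.mk'_surjective Z g
    have v2 : (φ g * φ u * (φ g)⁻¹) ^ 2 ^ 1 = 1 := by rw [conj_pow, w2]; simp
    have pU := (DT.sup_pgroup (zp w2) (zp v2) (Subgroup.zpowers_le.2 (Subgroup.centralizer_le_normalizer _ (by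
      rintro _ ⟨i, rfl⟩
      exact (c.symm.zpow_left i).eq)))).comap_of_ker_isPGroup φ (by rwa [QuotientGroup.ker_mk'])
    have m1 : u ∈ (Subgroup.zpowers (φ u) ⊔ Subgroup.zpowers (φ g * φ u * (φ g)⁻¹)).comap φ :=
      Subgroup.mem_sup_left (Subgroup.mem_zpowers _)
    have m2 : g * u * g⁻¹ ∈ (Subgroup.zpowers (φ u) ⊔ Subgroup.zpowers (φ g * φ u * (φ g)⁻¹)).comap φ := by
      rw [Subgroup.mem_comap, map_mul, map_mul, map_inv]
      exact Subgroup.mem_sup_right (Subgroup.mem_zpowers _)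
    have e := Subgroup.mem_center_iff.1 (hZ u2) g
    have := (k1 _).2 (hb _ pU _ (mul_mem (inv_mem m1) m2) u m1 (by
      have a1 : u * (u⁻¹ * (g * u * g⁻¹)) * u⁻¹ = g * u⁻¹ * g⁻¹ * (g * (u * u)) * g⁻¹ * u⁻¹ := by group
      rw [a1, e]
      group))
    rw [map_mul, map_inv, inv_mul_eq_one, map_mul, map_mul, map_inv] at this
    exact this.symm⟩
  rw [quot hZ h2 hodd N n1 n2] at n3
  have c : u * y * u⁻¹ * y⁻¹ ∈ Z := (k1 _).1 (by
    rw [map_mul, map_mul, map_mul, map_inv, map_inv]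
    exact Subgroup.mem_bot.1 (n3 _))
  refine ⟨u, fun m => ?_, u2, commutatorElement_eq_one_iff_commute.1 (two_odd h2 c ho ?_)⟩
  · rw [(k1 u).2 m, orderOf_one] at hw
    exact absurd hw (by decide)
  · have cy : Commute (u * y * u⁻¹ * y⁻¹) y := (Subgroup.mem_center_iff.1 (hZ c) y).symm
    have := cy.mul_pow (orderOf y)
    rw [inv_mul_cancel_right, conj_pow, pow_orderOf_eq_one, mul_one, mul_one, mul_inv_cancel] at this
    exact this.symm

end R2Aux

open R2Aux in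
theorem Loc.alpha (h : Loc E) (hb : Beta E) : Alpha E := by
  intro y hy hy1 ho _ _
  haveI := h.nm
  obtain ⟨u, h1, h2, h3⟩ := key (H := ceS E) (Z := E.subgroupOf (ceS E))
    (fun z hz => Subgroup.mem_center_iff.2 fun g => Subtype.ext (g.2 z hz).symm) h.two.comap_subtype
    (odd_of h.odd _)
    (fun U hU x hx u hu e => hb _ (hU.map (ceS E).subtype) x ⟨x, hx, rfl⟩ u ⟨u, hu, rfl⟩ x.2 (congrArg Subtype.val e))
    (y := ⟨y, hy⟩) (fun e => hy1 (congrArg Subtype.val e)) (by rwa [Subgroup.orderOf_mk])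
  obtain ⟨k, hk⟩ := h.two ⟨_, h2⟩
  have e : (u : G) ^ 2 ^ (k + 1) = 1 := by
    rw [pow_succ', pow_mul, sq]
    simpa using congrArg Subtype.val hk
  refine ⟨Subgroup.zpowers (u : G) ⊔ E, DT.sup_pgroup (zp e) h.two (by rw [nor, Subgroup.normalizer_eq_top]; exact le_top),
    lt_of_le_of_ne le_sup_right fun e' => h1 ?_, fun g hg => ?_⟩
  · exact e'.ge (Subgroup.mem_sup_left (Subgroup.mem_zpowers _))
  · have : Subgroup.zpowers (u : G) ⊔ E ≤ cen y := sup_le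
      (Subgroup.zpowers_le.2 (DT.mem_cen.2 (congrArg Subtype.val h3.eq))) fun a ha => DT.mem_cen.2 (hy a ha)
    exact DT.mem_cen.1 (this hg)

end Cfsg.Agent.RY
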