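import Cfsg.Agent.RY.Lift
import Cfsg.Agent.H85.AlmostSimple

/-! Project RY (S3860): real odd elements centralize normal 2-subgroups; a component exists. -/

set_option autoImplicit false
set_option linter.unusedSectionVars false

namespace Cfsg.Agent.RY

open Cfsg.Agent.DT (cm nor cen cj)

universe u
variable {G : Type u} [Group G] [Finite G] {E K : Subgroup G}

namespace R3Aux

theorem eq_one {A : Subgroup G} (hA : IsPGroup 2 A) {g : G} (hg : g ∈ A) (ho : Odd (orderOf g)) : g = 1 := by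
  haveI : Fact (Nat.Prime 2) := ⟨Nat.prime_two⟩
  obtain ⟨k, hk⟩ := IsPGroup.iff_orderOf.1 hA ⟨g, hg⟩
  rw [← Subgroup.orderOf_coe] at hk
  change orderOf g = 2 ^ k at hk
  rcases k with _ | k
  · exact orderOf_eq_one_iff.1 hk
  · rw [hk, pow_succ] at ho
    exact absurd ho (by simp)

theorem conj_cen {y t : G} (ht : Iv t y) {a : G} (ha : Commute a y) : Commute (t * a * t⁻¹) y := by
  have h1 : Commute (t * a * t⁻¹) (t * y * t⁻¹) := by
    have := ha.map (MulAut.conj t).toMonoidHom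
    simpa using this
  rw [ht] at h1
  simpa using h1.inv_right

theorem exists_D [hE : E.Normal] (h2 : IsPGroup 2 E) {y t : G} (hy : y ∈ ceS E) {k : ℕ} (hk : t ^ 2 ^ k = 1)
    (ht : Iv t y) {D0 : Subgroup G} (h0 : IsPGroup 2 D0) (lt : E < D0) (hy0 : y ∈ ceS D0) :
    ∃ D : Subgroup G, IsPGroup 2 D ∧ E < D ∧ y ∈ ceS D ∧ t ∈ nor D := by
  haveI : Fact (Nat.Prime 2) := ⟨Nat.prime_two⟩
  have tn : t ∈ nor (cen y) := Subgroup.mem_normalizer_fintype fun a ha =>
    DT.mem_cen.2 (conj_cen ht (DT.mem_cen.1 ha))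
  have cE : E ≤ cen y := fun e he => DT.mem_cen.2 (Subgroup.mem_centralizer_iff.1 hy e he)
  have c0 : D0 ≤ cen y := fun e he => DT.mem_cen.2 (Subgroup.mem_centralizer_iff.1 hy0 e he)
  let H := nor (cen y)
  have hz : IsPGroup 2 (Subgroup.zpowers t) := by
    rintro ⟨_, n, rfl⟩
    exact ⟨k, Subtype.ext (by
      show (t ^ n) ^ 2 ^ k = 1
      rw [← zpow_natCast, ← zpow_mul, mul_comm, zpow_mul, zpow_natCast, hk, one_zpow])⟩
  have hA : IsPGroup 2 (Subgroup.zpowers t ⊔ E : Subgroup G) :=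
    DT.sup_pgroup hz h2 (by rw [nor, Subgroup.normalizer_eq_top]; exact le_top)
  obtain ⟨P, hP⟩ := (hA.comap_of_injective H.subtype H.subtype_injective).exists_le_sylow
  obtain ⟨Q, hQ⟩ := (h0.comap_of_injective H.subtype H.subtype_injective).exists_le_sylow
  obtain ⟨g, hg⟩ := MulAction.exists_smul_eq H Q P
  refine ⟨(P : Subgroup H).map H.subtype ⊓ cen y, (P.isPGroup'.map _).to_le inf_le_left, ?_, ?_, ?_⟩
  · refine lt_of_le_of_ne (fun e he => ⟨⟨⟨e, Subgroup.le_normalizer (cE he)⟩,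
      hP (Subgroup.mem_sup_right he), rfl⟩, cE he⟩) fun e => ?_
    obtain ⟨d, hd, nd⟩ := SetLike.exists_of_lt lt
    have m : g * ⟨d, Subgroup.le_normalizer (c0 hd)⟩ * g⁻¹ ∈ (P : Subgroup H) := by
      rw [← hg]
      exact ⟨_, hQ (show (⟨d, Subgroup.le_normalizer (c0 hd)⟩ : H) ∈ D0.comap H.subtype from hd), rfl⟩
    have m2 : (g : G) * d * (g : G)⁻¹ ∈ E := by
      rw [e]
      exact ⟨⟨_, m, rfl⟩, (DT.mem_nor.1 g.2 d).1 (c0 hd)⟩
    have := hE.conj_mem _ m2 (g : G)⁻¹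
    exact nd (by simpa [mul_assoc] using this)
  · exact Subgroup.mem_centralizer_iff.2 fun a ha => DT.mem_cen.1 ha.2
  · have tP : (⟨t, tn⟩ : H) ∈ (P : Subgroup H) := hP (Subgroup.mem_sup_left (Subgroup.mem_zpowers t))
    refine Subgroup.mem_normalizer_fintype ?_
    rintro _ ⟨⟨a, ha, rfl⟩, hc⟩
    exact ⟨⟨_, mul_mem (mul_mem tP ha) (inv_mem tP), rfl⟩, (DT.mem_nor.1 tn _).1 hc⟩

end R3Aux

open R3Aux

theorem Loc.cent (h : Loc E) (ha : Alpha E) {Q : Subgroup G} [Q.Normal] (hQ : IsPGroup 2 Q) {y t : G}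
    (hy : y ∈ ceS E) (ho : Odd (orderOf y)) (ht : Iv t y) : y ∈ ceS Q := by
  by_cases y1 : y = 1
  · rw [y1]; exact one_mem _
  haveI := h.nm
  obtain ⟨m, k, -, hk, ht'⟩ := ht.two
  obtain ⟨D0, h0, lt, hy0⟩ := ha y hy y1 ho t ht
  obtain ⟨D, hD, lt', hyD, tD⟩ := exists_D h.two hy hk ht' h0 lt hy0
  obtain ⟨L, -, hn, hL, yL⟩ := h.good D hD lt' y hyD ho _ tD ht'
  have top : ∀ g : G, g ∈ nor Q := fun g => by rw [nor, Subgroup.normalizer_eq_top]; trivial
  refine pq hQ hD (fun g _ => top g) ho (top y) hyD fun q hq hc => ?_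
  have m1 : q * y * q⁻¹ * y⁻¹ ∈ L := mul_mem ((DT.mem_nor.1 (hn hc) y).1 yL) (inv_mem yL)
  have m2 : q * y * q⁻¹ * y⁻¹ ∈ Q := by
    have := mul_mem hq (Subgroup.Normal.conj_mem inferInstance _ (inv_mem hq) y)
    simpa [mul_assoc] using this
  have := eq_one hQ m2 (hL.of_dvd_nat (Subgroup.orderOf_dvd_natCard L m1))
  rw [mul_inv_eq_one, mul_inv_eq_iff_eq_mul] at this
  exact this

theorem Loc.exists_comp (h : Loc E) (ha : Alpha E) : ∃ K : Subgroup G, IsComponent K := by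
  haveI : Fact (Nat.Prime 2) := ⟨Nat.prime_two⟩
  by_contra n
  obtain ⟨y, hy, y1, ho, t, ht⟩ := h.bad
  have hO : pPrimeCore 2 G = ⊥ := h.odd _ inferInstance (Nat.coprime_two_right.1 H44.pPrimeCore_coprime)
  have hF := H85.fitting_eq_pCore hO
  have hL : layer G = ⊥ := eq_bot_iff.2 (sSup_le fun K hK => absurd ⟨K, hK⟩ n)
  have hc := h.cent ha (H44.pCore_isPGroup (p := 2) (G := G)) hy ho ht
  have := H44.centralizer_gfitting_le_fitting (G := G) (x := y) (by
    rw [generalizedFittingSubgroup, hL, bot_sup_eq, hF]; exact hc)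
  rw [hF] at this
  exact y1 (eq_one H44.pCore_isPGroup this ho)

end Cfsg.Agent.RY
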