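import Cfsg.Agent.RY.Lift

set_option autoImplicit false
set_option linter.unusedSectionVars false

namespace Cfsg.Agent.RY

open Cfsg.Agent.DT (cm nor cen cj)
open scoped commutatorElement

universe u
variable {G : Type u} [Group G] [Finite G] {E K : Subgroup G}

theorem Cmp.normal (h : Cmp E K) : (ceS K).Normal := by
  have := h.nm
  infer_instance

theorem R4aAux.perf (h : Cmp E K) : ⁅K, K⁆ = K := by
  have := h.qs.1
  rw [← Subgroup.map_subtype_commutator, Group.IsPerfect.commutator_eq_top,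
    ← MonoidHom.range_eq_map, Subgroup.range_subtype]

theorem Cmp.basic (h : Cmp E K) [(ceS K).Normal] :
    IsSimpleGroup ↥(K.map (QuotientGroup.mk' (ceS K))) ∧ ¬ IsMulCommutative ↥(K.map (QuotientGroup.mk' (ceS K))) ∧
      ceS (K.map (QuotientGroup.mk' (ceS K))) = ⊥ := by
  have hs := h.qs.2
  let φ : K →* G ⧸ ceS K := (QuotientGroup.mk' (ceS K)).comp K.subtype
  have hk : Subgroup.center K = φ.ker := by
    ext a
    rw [MonoidHom.mem_ker, Subgroup.mem_center_iff]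
    show _ ↔ ((a : G) : G ⧸ ceS K) = 1
    rw [QuotientGroup.eq_one_iff, Subgroup.mem_centralizer_iff]
    exact ⟨fun e g hg => congrArg Subtype.val (e ⟨g, hg⟩), fun e g => Subtype.ext (e g g.2)⟩
  have hr : φ.range = K.map (QuotientGroup.mk' (ceS K)) := by
    rw [MonoidHom.range_comp, Subgroup.range_subtype]
  have e : (K ⧸ Subgroup.center K) ≃* ↥(K.map (QuotientGroup.mk' (ceS K))) :=
    ((QuotientGroup.quotientMulEquivOfEq hk).trans (QuotientGroup.quotientKerEquivRange φ)).trans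
      (MulEquiv.subgroupCongr hr)
  have hsimp : IsSimpleGroup ↥(K.map (QuotientGroup.mk' (ceS K))) := e.symm.isSimpleGroup
  have hcen : ceS (K.map (QuotientGroup.mk' (ceS K))) = ⊥ := by
    let A : Subgroup G := (ceS (K.map (QuotientGroup.mk' (ceS K)))).comap (QuotientGroup.mk' (ceS K))
    have h1 : ⁅K, A⁆ ≤ ceS K := by
      refine Subgroup.commutator_le.2 fun k hk a ha => ?_
      rw [← QuotientGroup.eq_one_iff]
      have := Subgroup.mem_centralizer_iff.1 ha _ (Subgroup.mem_map_of_mem _ hk)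
      have h2 : QuotientGroup.mk' (ceS K) ⁅k, a⁆ = 1 := by
        rw [map_commutatorElement, commutatorElement_eq_one_iff_mul_comm]; exact this
      exact h2
    have h2 : ⁅⁅K, A⁆, K⁆ = ⊥ := Subgroup.commutator_eq_bot_iff_le_centralizer.2 h1
    have h3 : ⁅⁅A, K⁆, K⁆ = ⊥ := by rw [Subgroup.commutator_comm A K]; exact h2
    have h4 := Subgroup.commutator_commutator_eq_bot_of_rotate h2 h3
    rw [R4aAux.perf h, Subgroup.commutator_comm,
      Subgroup.commutator_eq_bot_iff_le_centralizer] at h4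
    rw [eq_bot_iff]
    intro g hg
    obtain ⟨a, rfl⟩ := QuotientGroup.mk'_surjective (ceS K) g
    exact Subgroup.mem_bot.2 ((QuotientGroup.eq_one_iff a).2 (h4 hg))
  refine ⟨hsimp, fun hc => ?_, hcen⟩
  obtain ⟨a, ha⟩ := exists_ne (1 : ↥(K.map (QuotientGroup.mk' (ceS K))))
  have : (a : G ⧸ ceS K) ∈ ceS (K.map (QuotientGroup.mk' (ceS K))) :=
    Subgroup.mem_centralizer_iff.2 fun b hb => congrArg Subtype.val (hc.is_comm.comm ⟨b, hb⟩ a)
  rw [hcen, Subgroup.mem_bot] at this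
  exact ha (Subtype.ext this)

theorem Cmp.ztwo (hL : Loc E) (h : Cmp E K) : IsPGroup 2 (K ⊓ ceS K : Subgroup G) := by
  have := h.nm
  let N : Subgroup G :=
    { carrier := {x | x ∈ K ⊓ ceS K ∧ Odd (orderOf x)}
      one_mem' := ⟨one_mem _, by simp⟩
      mul_mem' := by
        rintro a b ⟨ha, ha'⟩ ⟨hb, hb'⟩
        have hc : Commute a b := Subgroup.mem_centralizer_iff.1 hb.2 a ha.1
        exact ⟨mul_mem ha hb, (ha'.mul hb').of_dvd_nat hc.orderOf_mul_dvd_mul_orderOf⟩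
      inv_mem' := by
        rintro a ⟨ha, ha'⟩
        exact ⟨inv_mem ha, by rwa [orderOf_inv]⟩ }
  have hN : N.Normal := ⟨by
    rintro a ⟨ha, ha'⟩ g
    refine ⟨(inferInstance : (K ⊓ ceS K).Normal).conj_mem a ha g, ?_⟩
    have := orderOf_injective (MulAut.conj g).toMonoidHom (MulAut.conj g).injective a
    rw [← this] at ha'
    exact ha'⟩
  have hodd : Odd (Nat.card N) := by
    rw [← Nat.not_even_iff_odd, even_iff_two_dvd]
    intro hd
    have := Fact.mk Nat.prime_two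
    obtain ⟨a, ha⟩ := exists_prime_orderOf_dvd_card' 2 hd
    have h2 : Odd (orderOf (a : G)) := a.2.2
    rw [Subgroup.orderOf_coe, ha] at h2
    exact absurd h2 (by decide)
  have hb := hL.odd N hN hodd
  intro z
  obtain ⟨k, m, hm, e⟩ := Nat.exists_eq_two_pow_mul_odd (orderOf_pos (z : G)).ne'
  refine ⟨k, Subtype.ext ?_⟩
  have h1 : (z : G) ^ 2 ^ k ∈ N := by
    refine ⟨pow_mem z.2 _, hm.of_dvd_nat (orderOf_dvd_of_pow_eq_one ?_)⟩
    rw [← pow_mul, ← e, pow_orderOf_eq_one]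
  rw [hb, Subgroup.mem_bot] at h1
  exact h1

theorem R4aAux.key (hL : Loc E) (h : Cmp E K) {a b : G} (ha : a ∈ K) (hb : b ∈ K)
    (oa : Odd (orderOf a)) (ob : Odd (orderOf b)) (hc : a * b⁻¹ ∈ ceS K) : a = b := by
  obtain ⟨k, hk⟩ := h.ztwo hL ⟨a * b⁻¹, K.mul_mem ha (K.inv_mem hb), hc⟩
  have hk' : (a * b⁻¹) ^ 2 ^ k = 1 := congrArg Subtype.val hk
  have hcm : Commute (a * b⁻¹) b := (Subgroup.mem_centralizer_iff.1 hc b hb).symm
  have h1 : (a * b⁻¹) ^ (orderOf a * orderOf b) = 1 := by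
    have h2 := hcm.mul_pow (orderOf a * orderOf b)
    rw [inv_mul_cancel_right, pow_mul a, pow_orderOf_eq_one, one_pow, pow_mul' b,
      pow_orderOf_eq_one, one_pow, mul_one] at h2
    exact h2.symm
  have h3 : orderOf (a * b⁻¹) = 1 :=
    Nat.eq_one_of_dvd_coprimes ((Nat.coprime_two_right.2 (oa.mul ob)).pow_right k)
      (orderOf_dvd_of_pow_eq_one h1) (orderOf_dvd_of_pow_eq_one hk')
  exact mul_inv_eq_one.1 (orderOf_eq_one_iff.1 h3)

theorem R4aAux.ord (g y : G) : orderOf (g * y * g⁻¹) = orderOf y :=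
  orderOf_injective (MulAut.conj g).toMonoidHom (MulAut.conj g).injective y

theorem Cmp.comm (hL : Loc E) (h : Cmp E K) {y g : G} (hy : y ∈ K) (ho : Odd (orderOf y))
    (hc : g * y * g⁻¹ * y⁻¹ ∈ ceS K) : Commute g y := by
  have := R4aAux.key hL h (h.nm.conj_mem y hy g) hy (by rwa [R4aAux.ord]) ho hc
  exact mul_inv_eq_iff_eq_mul.1 this

theorem Cmp.rep (hL : Loc E) (h : Cmp E K) [(ceS K).Normal] {y : G ⧸ ceS K} (hy : y ∈ K.map (QuotientGroup.mk' (ceS K)))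
    (ho : Odd (orderOf y)) : ∃ k ∈ K, (QuotientGroup.mk k : G ⧸ ceS K) = y ∧ Odd (orderOf k) := by
  obtain ⟨k, hk, rfl⟩ := hy
  obtain ⟨a, m, hm, e⟩ := Nat.exists_eq_two_pow_mul_odd (orderOf_pos k).ne'
  obtain ⟨o, hoo⟩ : ∃ o, o = orderOf (QuotientGroup.mk' (ceS K) k) := ⟨_, rfl⟩
  have hop : 0 < o := hoo ▸ orderOf_pos _
  refine ⟨k ^ (2 ^ a) ^ o.totient, pow_mem hk _, ?_, hm.of_dvd_nat (orderOf_dvd_of_pow_eq_one ?_)⟩
  · have h1 : (2 ^ a) ^ o.totient ≡ 1 [MOD o] :=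
      Nat.ModEq.pow_totient ((Nat.coprime_two_left.2 (hoo ▸ ho)).pow_left a)
    have h2 : QuotientGroup.mk' (ceS K) k ^ (2 ^ a) ^ o.totient = QuotientGroup.mk' (ceS K) k ^ 1 :=
      pow_eq_pow_iff_modEq.2 (hoo ▸ h1)
    rw [pow_one, ← map_pow] at h2
    exact h2
  · rw [← pow_mul, ← orderOf_dvd_iff_pow_eq_one, e]
    exact Nat.mul_dvd_mul_right (dvd_pow_self _ (Nat.totient_pos.2 hop).ne') m

theorem Cmp.d (hL : Loc E) (ha : Alpha E) (h : Cmp E K) [(ceS K).Normal] {y : G ⧸ ceS K}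
    (hy : y ∈ K.map (QuotientGroup.mk' (ceS K))) (hy1 : y ≠ 1) (ho : Odd (orderOf y)) {t : G ⧸ ceS K} (ht : Iv t y) :
    ∃ σ : G ⧸ ceS K, orderOf σ = 2 ∧ Commute y σ := by
  obtain ⟨k, hk, rfl, hko⟩ := h.rep hL hy ho
  obtain ⟨s, rfl⟩ := QuotientGroup.mk_surjective t
  have hi : Iv s k := by
    refine R4aAux.key hL h (h.nm.conj_mem k hk s) (inv_mem hk) (by rwa [R4aAux.ord])
      (by rwa [orderOf_inv]) ?_
    rw [← QuotientGroup.eq_one_iff]
    have ht' : (s : G ⧸ ceS K) * k * (s : G ⧸ ceS K)⁻¹ = (k : G ⧸ ceS K)⁻¹ := ht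
    simp only [QuotientGroup.mk_mul, QuotientGroup.mk_inv, ht', mul_inv_cancel]
  have hk1 : k ≠ 1 := by rintro rfl; exact hy1 rfl
  obtain ⟨D, hD, hED, hkD⟩ := ha k (h.le hk) hk1 hko s hi
  have hn : ¬ D ≤ ceS K := fun e => hED.not_ge (h.syl D hD e)
  obtain ⟨d, hd, hdC⟩ := SetLike.not_le_iff_exists.1 hn
  obtain ⟨j, hj⟩ := hD ⟨d, hd⟩
  have hj' : d ^ 2 ^ j = 1 := congrArg Subtype.val hj
  have h1 : (d : G ⧸ ceS K) ^ 2 ^ j = 1 := by rw [← QuotientGroup.mk_pow, hj', QuotientGroup.mk_one]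
  have h2 : (d : G ⧸ ceS K) ≠ 1 := fun e => hdC ((QuotientGroup.eq_one_iff d).1 e)
  have h3 : 2 ∣ orderOf (d : G ⧸ ceS K) := by
    obtain ⟨i, -, hi⟩ := (Nat.dvd_prime_pow Nat.prime_two).1 (orderOf_dvd_of_pow_eq_one h1)
    rcases i with _ | i
    · exact absurd (orderOf_eq_one_iff.1 hi) h2
    · rw [hi]; exact dvd_pow_self 2 i.succ_ne_zero
  refine ⟨_, orderOf_pow_orderOf_div (orderOf_pos _).ne' h3, Commute.pow_right ?_ _⟩
  have h4 : d * k = k * d := Subgroup.mem_centralizer_iff.1 hkD d hd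
  show (k : G ⧸ ceS K) * d = d * k
  rw [← QuotientGroup.mk_mul, ← QuotientGroup.mk_mul, h4]

end Cfsg.Agent.RY
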