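import Cfsg.Agent.RY.R4a
import Cfsg.Agent.H49.SylowOf

set_option autoImplicit false
set_option linter.unusedSectionVars false

namespace Cfsg.Agent.RY

open Cfsg.Agent.DT (cm nor cen cj)

universe u
variable {G : Type u} [Group G] [Finite G] {E K : Subgroup G}

namespace R4cAux

theorem zp {H : Type*} [Group H] [Finite H] {τ x : H} (hτ : orderOf τ = 2) (hx : x ∈ Subgroup.zpowers τ) :
    x = 1 ∨ x = τ := by
  have h2 : τ * τ = 1 := by rw [← sq, ← hτ, pow_orderOf_eq_one]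
  obtain ⟨n, rfl⟩ := (mem_powers_iff_mem_zpowers).2 hx
  induction n with
  | zero => exact Or.inl (pow_zero _)
  | succ n ih =>
    rcases ih (Subgroup.npow_mem_zpowers τ n) with e | e
    · exact Or.inr (by simp only at e ⊢; rw [pow_succ, e, one_mul])
    · exact Or.inl (by simp only at e ⊢; rw [pow_succ, e, h2])

/-- odd order elements of `K` which are congruent modulo `C(K)` are equal -/
theorem eq_of_odd (hL : Loc E) (h : Cmp E K) {a b : G} (ha : a ∈ K) (hb : b ∈ K) (oa : Odd (orderOf a))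
    (ob : Odd (orderOf b)) (e : b⁻¹ * a ∈ ceS K) : a = b := by
  obtain ⟨j, hj⟩ := h.ztwo hL ⟨b⁻¹ * a, K.mul_mem (K.inv_mem hb) ha, e⟩
  have hj' : (b⁻¹ * a) ^ 2 ^ j = 1 := by simpa using congrArg Subtype.val hj
  have hc : Commute b (b⁻¹ * a) := e b hb
  have h1 : (b⁻¹ * a) ^ (orderOf a * orderOf b) = 1 := by
    have := hc.mul_pow (orderOf a * orderOf b)
    rw [mul_inv_cancel_left, pow_mul, pow_orderOf_eq_one, one_pow, mul_comm (orderOf a), pow_mul b,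
      pow_orderOf_eq_one, one_pow, one_mul] at this
    rw [mul_comm (orderOf a)]
    exact this.symm
  have h2 : Nat.Coprime (2 ^ j) (orderOf a * orderOf b) := (Nat.coprime_two_left.2 (oa.mul ob)).pow_left _
  have h3 : orderOf (b⁻¹ * a) = 1 :=
    Nat.eq_one_of_dvd_coprimes h2 (orderOf_dvd_of_pow_eq_one hj') (orderOf_dvd_of_pow_eq_one h1)
  exact (inv_mul_eq_one.1 (orderOf_eq_one_iff.1 h3)).symm

/-- an odd normal subgroup of `M` lies in one that is invariant under `N(M)` -/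
theorem core {M L : Subgroup G} (h1 : L ≤ M) (h2 : M ≤ nor L) (h3 : Odd (Nat.card L)) :
    ∃ L' : Subgroup G, L ≤ L' ∧ L' ≤ M ∧ nor M ≤ nor L' ∧ Odd (Nat.card L') := by
  obtain ⟨L', hle, ⟨k1, k2, k3⟩, hm⟩ := Finite.exists_le_maximal
    (p := fun X : Subgroup G => X ≤ M ∧ M ≤ nor X ∧ Odd (Nat.card X)) ⟨h1, h2, h3⟩
  refine ⟨L', hle, k1, fun g hg => ?_, k3⟩
  have e : cj g M = M := DT.cj_eq_self_iff.2 hg
  have a1 : cj g L' ≤ M := e ▸ Subgroup.map_mono k1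
  have a2 : M ≤ nor (cj g L') := by rw [DT.nor_cj, ← e]; exact Subgroup.map_mono k2
  have a3 : Odd (Nat.card ↥(L' ⊔ cj g L')) := by
    have := H49.card_sup_mul_card_inf (H := L') (K := cj g L') (Or.inl (k1.trans a2))
    refine (k3.mul (DT.card_cj g L' ▸ k3 : Odd (Nat.card (cj g L')))).of_dvd_nat ?_
    exact ⟨_, this.symm⟩
  have a4 := hm (y := L' ⊔ cj g L') ⟨sup_le k1 a1, (le_inf k2 a2).trans (DT.nor_inf_le_nor_sup _ _), a3⟩ le_sup_left
  exact Subgroup.mem_normalizer_fintype fun n hn => a4 (Subgroup.mem_sup_right ⟨n, hn, rfl⟩)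

end R4cAux

open R4cAux

theorem Cmp.c (hL : Loc E) (h : Cmp E K) [(ceS K).Normal] {τ : G ⧸ ceS K} (hτ : orderOf τ = 2) {y : G ⧸ ceS K}
    (hy : y ∈ K.map (QuotientGroup.mk' (ceS K))) (hc : Commute y τ) (ho : Odd (orderOf y)) {t : G ⧸ ceS K}
    (htτ : Commute t τ) (ht : Iv t y) : InO (K.map (QuotientGroup.mk' (ceS K)) ⊓ cen τ) y := by
  have := hL.nm
  have := h.nm
  set π := QuotientGroup.mk' (ceS K) with hπ
  have ker : ∀ g : G, π g = 1 ↔ g ∈ ceS K := fun g => QuotientGroup.eq_one_iff g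
  have τ2 : τ ^ 2 = 1 := by rw [← hτ, pow_orderOf_eq_one]
  obtain ⟨u, j, hu, uj⟩ : ∃ (u : G) (j : ℕ), π u = τ ∧ u ^ 2 ^ j = 1 := by
    obtain ⟨u0, h0⟩ := QuotientGroup.mk'_surjective (ceS K) τ
    obtain ⟨_, j, ⟨m, rfl⟩, h2, -⟩ := Iv.two (t := u0) (y := 1) (by simp [Iv])
    exact ⟨_, j, by rw [map_pow, h0, pow_succ, pow_mul, τ2, one_pow, one_mul], h2⟩
  obtain ⟨k, hk, ek, ok⟩ := h.rep hL hy ho
  replace ek : π k = y := ek
  obtain ⟨t0, e0⟩ := QuotientGroup.mk'_surjective (ceS K) t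
  replace e0 : π t0 = t := e0
  have EC : E ≤ ceS K := Subgroup.le_centralizer_iff.1 h.le
  have uk : Commute u k := h.comm hL hk ok ((ker _).1 (by
    rw [map_mul, map_mul, map_mul, map_inv, map_inv, hu, ek, ← hc.eq, mul_inv_cancel_right, mul_inv_cancel]))
  have pu : IsPGroup 2 (Subgroup.zpowers u) := by
    rintro ⟨_, n, rfl⟩
    refine ⟨j, Subtype.ext ?_⟩
    change (u ^ n) ^ 2 ^ j = 1
    rw [← zpow_natCast, ← zpow_mul, mul_comm, zpow_mul, zpow_natCast, uj, one_zpow]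
  have pU : IsPGroup 2 ↥(E ⊔ Subgroup.zpowers u) := hL.two.to_sup_of_normal_left pu
  have uU : u ∈ E ⊔ Subgroup.zpowers u := Subgroup.mem_sup_right (Subgroup.mem_zpowers u)
  have lt : E < E ⊔ Subgroup.zpowers u := lt_of_le_of_ne le_sup_left fun e => by
    have : τ = 1 := hu ▸ (ker u).2 (EC (e ▸ uU))
    rw [this, orderOf_one] at hτ
    exact absurd hτ (by norm_num)
  have cU : ∀ g ∈ K, Commute g u → g ∈ ceS (E ⊔ Subgroup.zpowers u) := fun g hg e =>
    (Subgroup.zpowers_le.1 (Subgroup.le_centralizer_iff.1 (sup_le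
      (Subgroup.le_centralizer_iff.1 (Subgroup.zpowers_le.2 (h.le hg)))
      (Subgroup.zpowers_le.2 (by rintro _ ⟨n, rfl⟩; exact (e.zpow_left n).eq)))))
  have i0 : Iv t0 k := by
    refine eq_of_odd hL h (h.nm.conj_mem _ hk _) (inv_mem hk) ?_ (by rwa [orderOf_inv]) ((ker _).1 ?_)
    · rwa [show t0 * k * t0⁻¹ = MulAut.conj t0 k from rfl, MulEquiv.orderOf_eq]
    · rw [inv_inv, map_mul, map_mul, map_mul, map_inv, e0, ek, ht, mul_inv_cancel]
  -- Frattini argument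
  obtain ⟨t', n', i'⟩ : ∃ t' ∈ nor (E ⊔ Subgroup.zpowers u), Iv t' k := by
    set P := (Subgroup.zpowers τ).comap π with hP
    have mP : ∀ p ∈ P, p ∈ ceS K ∨ p * u⁻¹ ∈ ceS K := fun p hp =>
      (zp hτ hp).imp (ker _).1 fun e => (ker _).1 (by rw [map_mul, map_inv, e, hu, mul_inv_cancel])
    have UP : E ⊔ Subgroup.zpowers u ≤ P := sup_le
      (fun e he => by rw [hP, Subgroup.mem_comap, (ker e).2 (EC he)]; exact one_mem _)
      (Subgroup.zpowers_le.2 (by rw [hP, Subgroup.mem_comap, hu]; exact Subgroup.mem_zpowers τ))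
    have sy : H49.IsSylowOf 2 (E ⊔ Subgroup.zpowers u) P :=
      H49.sylowOf_of_max ((H49.isPi_singleton_iff Nat.prime_two).2 pU) UP fun Q h1 h2 h3 q hq => by
        have h4 := h.syl (Q ⊓ ceS K) (((H49.isPi_singleton_iff Nat.prime_two).1 h3).to_le inf_le_left) inf_le_right
        rcases mP q (h2 hq) with e | e
        · exact Subgroup.mem_sup_left (h4 ⟨hq, e⟩)
        · have := mul_mem (Subgroup.mem_sup_left (T := Subgroup.zpowers u)
            (h4 ⟨Q.mul_mem hq (Q.inv_mem (h1 uU)), e⟩)) uU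
          rwa [inv_mul_cancel_right] at this
    have tP : H49.cj t0 (E ⊔ Subgroup.zpowers u) ≤ P := fun x hx => by
      obtain ⟨w, hw, rfl⟩ := H49.mem_cj'.1 hx
      rw [hP, Subgroup.mem_comap, map_mul, map_mul, map_inv, e0]
      rcases zp hτ (UP hw) with e | e <;> rw [e]
      · simp
      · rw [htτ.eq, mul_inv_cancel_right]; exact Subgroup.mem_zpowers τ
    obtain ⟨p, hp, hle⟩ := H49.sylowOf_subJ sy tP
      ((H49.isPi_singleton_iff Nat.prime_two).2 (H49.isPGroup_cj.2 pU))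
    rw [H49.cj_cj] at hle
    refine ⟨p * t0, H49.mem_norm_of_cj_le hle, ?_⟩
    have pk : Commute p k := by
      rcases mP p hp with e | e
      · exact (e k hk).symm
      · have : Commute (p * u⁻¹) k := (e k hk).symm
        simpa using this.mul_left uk
    have i1 : t0 * k * t0⁻¹ = k⁻¹ := i0
    calc p * t0 * k * (p * t0)⁻¹ = p * (t0 * k * t0⁻¹) * p⁻¹ := by group
      _ = k⁻¹ := by rw [i1, pk.inv_right.eq, mul_inv_cancel_right]
  obtain ⟨L0, l1, l2, l3, l4⟩ := hL.good _ pU lt k (cU k hk uk.symm) ok t' n' i'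
  obtain ⟨L, m1, m2, m3, m4⟩ := core (M := K ⊓ cen u) (L := L0 ⊓ K)
    (fun x hx => ⟨hx.2, DT.mem_cen.2 (l1 hx.1 u uU).symm⟩)
    (fun g hg => DT.nor_inf_le_nor_inf _ _ ⟨l2 (cU g hg.1 (DT.mem_cen.1 hg.2)), Subgroup.le_normalizer hg.1⟩)
    (l3.of_dvd_nat (Subgroup.card_dvd_of_le inf_le_left))
  refine ⟨L.map π, ?_, ?_, m4.of_dvd_nat (Subgroup.card_map_dvd _ _), k, m1 ⟨l4, hk⟩, ek⟩
  · rintro _ ⟨l, hl, rfl⟩
    exact ⟨⟨l, (m2 hl).1, rfl⟩, DT.mem_cen.2 (hu ▸ (DT.mem_cen.1 (m2 hl).2).map π)⟩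
  · rintro _ ⟨⟨g, hg, rfl⟩, hg'⟩
    refine Subgroup.le_normalizer_map π ⟨g, m3 (Subgroup.mem_normalizer_fintype fun m hm => ?_), rfl⟩
    refine ⟨h.nm.conj_mem _ hm.1 _, DT.mem_cen.2 ?_⟩
    have c1 : g⁻¹ * u * g * u⁻¹ ∈ ceS K := (ker _).1 (by
      rw [map_mul, map_mul, map_mul, map_inv, map_inv, hu, mul_assoc _ τ, ← (DT.mem_cen.1 hg').eq,
        inv_mul_cancel_left, mul_inv_cancel])
    have c2 : Commute m (g⁻¹ * u * g * u⁻¹ * u) := Commute.mul_right (c1 m hm.1) (DT.mem_cen.1 hm.2)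
    rw [inv_mul_cancel_right] at c2
    calc g * m * g⁻¹ * u = g * (m * (g⁻¹ * u * g)) * g⁻¹ := by group
      _ = u * (g * m * g⁻¹) := by rw [c2.eq]; group

end Cfsg.Agent.RY
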